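import Mathlib

/-!
The generic element of the radical of the group algebra of an elementary abelian group.
-/

set_option autoImplicit false
set_option linter.unusedSectionVars false
set_option linter.style.haveILetI false

namespace H33.DG

open Finset Equiv Module Matrix MvPolynomial

/-- Cocycles with values in the fraction field of a factorial ring come from units. -/
theorem exists_unit_of_cocycle {R K Γ : Type*} [CommRing R] [IsDomain R]
    [UniqueFactorizationMonoid R] [Field K] [Algebra R K] [IsFractionRing R K] [Group Γ] [Finite Γ]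
    (σ : Γ → R ≃+* R) (τ : Γ → K →+* K)
    (h : ∀ g r, τ g (algebraMap R K r) = algebraMap R K (σ g r)) (f : Γ → K) (h0 : ∀ g, f g ≠ 0)
    (hf : ∀ g h, f (g * h) = f g * τ g (f h)) :
    ∃ D : K, D ≠ 0 ∧ ∀ g, ∃ u : R, IsUnit u ∧ f g * τ g D = algebraMap R K u * D := by
  letI := Fintype.ofFinite Γ
  obtain ⟨n, hn⟩ : ∃ n, Fintype.card Γ = n + 1 := Nat.exists_eq_succ_of_ne_zero Fintype.card_ne_zero
  have inj := IsFractionRing.injective R K
  have hF : ∀ g, f g ^ (n + 1) * τ g (∏ h, f h) = ∏ h, f h := fun g => by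
    rw [map_prod, ← hn, ← card_univ, ← prod_const, ← prod_mul_distrib]
    simp only [← hf]
    exact Equiv.prod_comp (Equiv.mulLeft g) f
  have hF0 : ∏ h, f h ≠ 0 := prod_ne_zero_iff.mpr fun g _ => h0 g
  generalize ∏ h, f h = F at hF hF0
  obtain ⟨r, ⟨D, hD, hr⟩, hmin⟩ := (wellFounded_dvdNotUnit (α := R)).has_min
    {r | ∃ D : K, D ≠ 0 ∧ F = algebraMap R K r * D ^ (n + 1)} (by
      obtain ⟨a, b, hb, rfl⟩ := IsFractionRing.div_surjective (A := R) F
      have : algebraMap R K b ≠ 0 := (map_ne_zero_iff _ inj).mpr (nonZeroDivisors.ne_zero hb)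
      exact ⟨a * b ^ n, (algebraMap R K b)⁻¹, inv_ne_zero this, by
        rw [map_mul, map_pow, inv_pow, pow_succ]; field_simp⟩)
  have key : ∀ x, x ^ (n + 1) ∣ r → IsUnit x := by
    rintro x ⟨s, rfl⟩
    by_contra hx
    have h1 : x ^ (n + 1) * s ≠ 0 := fun e => hF0 (by simp [hr, e])
    refine hmin s ⟨algebraMap R K x * D, mul_ne_zero ((map_ne_zero_iff _ inj).mpr ?_) hD, ?_⟩
      ⟨right_ne_zero_of_mul h1, _, fun h => hx ((isUnit_pow_iff n.succ_ne_zero).mp h), mul_comm _ _⟩
    · rintro rfl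
      simp at h1
    · rw [hr, map_mul, map_pow]; ring
  refine ⟨D, hD, fun g => ?_⟩
  obtain ⟨x, y, hxy, e⟩ := IsFractionRing.exists_reduced_fraction R (f g * τ g D / D)
  have hy : algebraMap R K y ≠ 0 := (map_ne_zero_iff _ inj).mpr (nonZeroDivisors.ne_zero y.2)
  rw [IsFractionRing.mk'_eq_div, div_eq_div_iff hy hD] at e
  have e2 : x ^ (n + 1) * σ g r = y ^ (n + 1) * r := by
    apply inj
    apply mul_right_cancel₀ (pow_ne_zero (n + 1) hD)
    have := hF g
    rw [hr, map_mul, h, map_pow] at this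
    simp only [map_mul, map_pow]
    rw [mul_right_comm, ← mul_pow, e, mul_assoc (_ ^ _), ← this]
    ring
  have hx := key x ((hxy.pow (m := n + 1) (n := n + 1)).dvd_of_dvd_mul_left (e2 ▸ dvd_mul_right _ _))
  have hy' := key ((σ g).symm y) (by
    have := map_dvd (σ g).symm ((hxy.symm.pow (m := n + 1) (n := n + 1)).dvd_of_dvd_mul_left
      (e2.symm ▸ dvd_mul_right _ _))
    rwa [map_pow, RingEquiv.symm_apply_apply] at this)
  obtain ⟨u, hu⟩ := (by simpa using hy'.map (σ g) : IsUnit (y : R))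
  refine ⟨x * ↑u⁻¹, hx.mul (Units.isUnit _), mul_right_cancel₀ hy ?_⟩
  rw [← e, ← hu, mul_right_comm, ← map_mul, Units.inv_mul_cancel_right]

/-- The rank drops under specialization. -/
theorem rank_map_le {R K k n : Type*} [CommRing R] [IsDomain R] [Field K] [Algebra R K]
    [IsFractionRing R K] [Field k] [Fintype n] [DecidableEq n] (φ : R →+* k) (s : k →+* R)
    (hs : ∀ a, φ (s a) = a) (A : Matrix n n R) :
    (A.map φ).rank ≤ (A.map (algebraMap R K)).rank := by
  obtain ⟨V, U, e, -, -, h⟩ := exists_rank_normal_form (A.map φ)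
  set B := (V.map s * A * U.map s).submatrix (e.symm ∘ Sum.inl) (e.symm ∘ Sum.inl) with hB
  have h1 : B.map φ = 1 := by
    have : ∀ X : Matrix n n k, (X.map s).map φ = X := fun X => by ext; simp [hs]
    rw [hB, ← submatrix_map, Matrix.map_mul, Matrix.map_mul, this, this, h]
    ext
    simp [Matrix.one_apply]
  have h2 : (B.map (algebraMap R K)).det ≠ 0 := by
    rw [← (algebraMap R K).mapMatrix_apply, ← RingHom.map_det,
      map_ne_zero_iff _ (IsFractionRing.injective R K)]
    intro h0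
    have := φ.map_det B
    rw [h0, RingHom.mapMatrix_apply, h1] at this
    simp at this
  have h3 := rank_of_det_ne_zero h2
  rw [hB, ← submatrix_map, Matrix.map_mul, Matrix.map_mul, Fintype.card_fin] at h3
  exact h3.ge.trans ((rank_submatrix_le _ _ _).trans
    ((rank_mul_le_left _ _).trans (rank_mul_le_right _ _)))

theorem dvd_finrank {k T : Type*} [Field k] [AddCommGroup T] [Module k T] [FiniteDimensional k T]
    {f : End k T} {q : ℕ} (hq : f ^ (q + 1) = 0) {S : Submodule k T} (hS : S.map f ≤ S)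
    (h : S ⊓ LinearMap.ker f ≤ S.map (f ^ q)) : q + 1 ∣ finrank k S := by
  have h1 : ∀ j, S.map (f ^ (j + 1)) = (S.map (f ^ j)).map f := fun j => by
    rw [← Submodule.map_comp, pow_succ']; rfl
  have h2 : Antitone fun j => S.map (f ^ j) := antitone_nat_of_succ_le fun j => by
    rw [pow_succ]
    exact (Submodule.map_comp f (f ^ j) S).le.trans (Submodule.map_mono hS)
  have h3 : ∀ j ≤ q + 1, finrank k S =
      finrank k (S.map (f ^ j)) + j * finrank k (S ⊓ LinearMap.ker f : Submodule k T) := by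
    intro j hj
    induction j with
    | zero => rw [pow_zero, End.one_eq_id, Submodule.map_id, zero_mul, add_zero]
    | succ j ih =>
      have e := (f.domRestrict (S.map (f ^ j))).finrank_range_add_finrank_ker
      have e2 : LinearMap.ker (f.domRestrict (S.map (f ^ j))) =
          (S ⊓ LinearMap.ker f).comap (S.map (f ^ j)).subtype := by
        ext x
        have : x.1 ∈ S := by simpa [End.one_eq_id] using h2 (Nat.zero_le j) x.2
        simp [this]
      rw [LinearMap.range_domRestrict, ← h1, e2,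
        (Submodule.comapSubtypeEquivOfLe (h.trans (h2 (by omega)))).finrank_eq] at e
      rw [ih (by omega), ← e]
      ring
  exact ⟨_, by rw [h3 _ le_rfl, hq, Submodule.map_zero, finrank_bot, zero_add]⟩

lemma sum_pow_eq_zero {A I : Type*} [Ring A] {p : ℕ} [Fact p.Prime] [CharP A p] (s : Finset I)
    {E : I → A} (hc : ∀ i j, Commute (E i) (E j)) (hp : ∀ i, E i ^ p = 0) :
    (∑ i ∈ s, E i) ^ p = 0 := by
  classical
  induction s using Finset.induction_on with
  | empty => simp [(Fact.out : p.Prime).ne_zero]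
  | insert a s ha ih =>
    rw [sum_insert ha, add_pow_char_of_commute _ (Commute.sum_right _ _ _ fun j _ => hc a j), hp, ih,
      add_zero]

variable {k I : Type*}

local notation "𝓡" => MvPolynomial I k

theorem core_mat {n Γ : Type*} [Field k] {q : ℕ} [Fact (q + 1).Prime] [CharP k (q + 1)]
    [Fintype I] [Fintype n] [DecidableEq n] [Group Γ] [Finite Γ] (E : I → Matrix n n k)
    (hc : ∀ i j, Commute (E i) (E j)) (hp : ∀ i, E i ^ (q + 1) = 0) (Q : Γ →* Matrix n n k)
    (β : Γ →* Perm I) (hQ : ∀ g i, Q g * E i = E (β g i) * Q g) (t : I → k)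
    (h1 : Fintype.card n ≤ (∑ i, t i • E i).rank + ((∑ i, t i • E i) ^ q).rank + 1)
    (h2 : ¬ q + 1 ∣ Fintype.card n) :
    ∃ c : Γ →* kˣ, ∀ g (a : k), β g = 1 → Q g = a • 1 → c g = a := by
  obtain ⟨K, _, _, _⟩ : ∃ (K : Type _) (_ : Field K) (_ : Algebra 𝓡 K), IsFractionRing 𝓡 K :=
    ⟨FractionRing 𝓡, inferInstance, inferInstance, inferInstance⟩
  let σ : Γ →* 𝓡 ≃+* 𝓡 :=
    { toFun g := (renameEquiv k (β g)).toRingEquiv
      map_one' := by ext; simp
      map_mul' g h := by ext; simp [rename_rename] }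
  let τ := (IsFractionRing.ringEquivOfRingEquivHom 𝓡 K).comp σ
  have hτ : ∀ g r, τ g (algebraMap 𝓡 K r) = algebraMap 𝓡 K (σ g r) := fun g =>
    IsFractionRing.ringEquivOfRingEquiv_algebraMap _
  let ι : k →+* K := (algebraMap 𝓡 K).comp C
  have hι : ∀ g a, τ g (ι a) = ι a := fun g a => (hτ g _).trans (by simp [σ, ι])
  let A : Matrix n n 𝓡 := ∑ i, (X i : 𝓡) • (E i).map C
  have hA : A.map (eval t) = ∑ i, t i • E i := by
    ext; simp [A, Matrix.sum_apply]
  let Y := A.map (algebraMap 𝓡 K)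
  have hY : Y = ∑ i, algebraMap 𝓡 K (X i) • (E i).map ι := by
    ext; simp [Y, A, Matrix.sum_apply, ι, -algebraMap_smul]
  have r1 : (∑ i, t i • E i).rank ≤ Y.rank := hA ▸ rank_map_le _ C (by simp) A
  have r2 : ((∑ i, t i • E i) ^ q).rank ≤ (Y ^ q).rank := by
    have := rank_map_le (K := K) (eval t) C (by simp) (A ^ q)
    rwa [Matrix.map_pow, Matrix.map_pow, hA] at this
  haveI : Nonempty n := Fintype.card_pos_iff.mp (Nat.pos_of_ne_zero fun h => h2 (h ▸ dvd_zero _))
  haveI : CharP K (q + 1) := charP_of_injective_ringHom ι.injective _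
  have hYp : Y ^ (q + 1) = 0 := by
    rw [hY]
    refine sum_pow_eq_zero _ (fun i j => (((hc i j).map ι.mapMatrix).smul_left _).smul_right _)
      fun i => ?_
    rw [_root_.smul_pow, ← Matrix.map_pow, hp]
    simp
  let act : Γ → (n → K) → n → K := fun g w => (Q g).map ι *ᵥ (τ g ∘ w)
  have hmv : ∀ g (B : Matrix n n K) w, τ g ∘ (B *ᵥ w) = B.map (τ g) *ᵥ (τ g ∘ w) := fun g B w =>
    funext fun i => RingHom.map_mulVec (τ g : K →+* K) B w i
  have a1 : ∀ g w, act g (Y *ᵥ w) = Y *ᵥ act g w := fun g w => by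
    simp only [act, hmv, mulVec_mulVec]
    congr 1
    have : Y.map (τ g) = ∑ i, algebraMap 𝓡 K (X (β g i)) • (E i).map ι := by
      ext; simp [hY, Matrix.sum_apply, hι, hτ, σ, -algebraMap_smul]
    rw [this, hY, mul_sum, sum_mul]
    refine Fintype.sum_equiv (β g) _ _ fun i => ?_
    rw [Matrix.mul_smul, Matrix.smul_mul, ← Matrix.map_mul, ← Matrix.map_mul, hQ]
  have a2 : ∀ g h w, act (g * h) w = act g (act h w) := fun g h w => by
    have : ((Q h).map ι).map (τ g) = (Q h).map ι := by ext; simp [hι]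
    simp only [act, hmv, mulVec_mulVec, this, map_mul, Matrix.map_mul]
    rfl
  have a3 : ∀ g a w w', act g (a • w + w') = τ g a • act g w + act g w' := fun g a w w' => by
    simp only [act, ← mulVec_smul, ← mulVec_add]
    congr 1
    ext; simp
  have a4 : ∀ g j w, act g (Y ^ j *ᵥ w) = Y ^ j *ᵥ act g w := fun g j => by
    induction j with
    | zero => simp
    | succ j ih => intro w; rw [pow_succ, ← mulVec_mulVec, ih, a1, mulVec_mulVec]
  have hτ1 : ∀ g, β g = 1 → τ g = 1 := fun g h => by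
    rw [MonoidHom.comp_apply, show σ g = 1 by ext; simp [σ, h], map_one]
  have a5 : ∀ g (a : k) w, β g = 1 → Q g = a • 1 → act g w = ι a • w := fun g a w h h' => by
    ext; simp [act, h', hτ1 g h, Matrix.map_smul' _ _ _ (map_mul ι), smul_mulVec]
  set S := LinearMap.range (Y ^ q).mulVecLin
  have hle : S ≤ LinearMap.ker Y.mulVecLin := by
    rintro _ ⟨w, rfl⟩
    simp [← pow_succ', hYp]
  have hpow : ∀ j, (Y ^ j).mulVecLin = Y.mulVecLin ^ j := fun j => map_pow toLinAlgEquiv' Y j
  obtain ⟨v, hv, hv'⟩ := SetLike.not_le_iff_exists.mp fun h : LinearMap.ker Y.mulVecLin ≤ S =>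
    h2 (by simpa using (dvd_finrank (f := Y.mulVecLin) (S := ⊤) (by rw [← hpow, hYp]; simp) le_top
      (by simpa [← hpow] using h)))
  have hsup : Submodule.span K {v} ⊔ S = LinearMap.ker Y.mulVecLin := by
    refine Submodule.eq_of_le_of_finrank_le (sup_le (by simpa using hv) hle) ?_
    have e1 := Y.mulVecLin.finrank_range_add_finrank_ker
    have e2 := Submodule.finrank_lt_finrank_of_lt (right_lt_sup.mpr
      (by simpa using hv' : ¬ Submodule.span K {v} ≤ S))
    simp only [Matrix.rank, finrank_fintype_fun_eq_card] at r1 r2 h1 e1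
    simp only [S] at e2 ⊢
    omega
  have hex : ∀ g, ∃ a : K, ∃ w ∈ S, act g v = a • v + w := fun g => by
    have : act g v ∈ Submodule.span K {v} ⊔ S := by
      rw [hsup, LinearMap.mem_ker, mulVecLin_apply, ← a1, show Y *ᵥ v = 0 from hv]
      simpa using a3 g (-1) 0 0
    obtain ⟨_, h, w, hw, e⟩ := Submodule.mem_sup.mp this
    obtain ⟨a, rfl⟩ := Submodule.mem_span_singleton.mp h
    exact ⟨a, w, hw, e.symm⟩
  choose f w hw hf using hex
  have huniq : ∀ a b : K, ∀ x ∈ S, ∀ y ∈ S, a • v + x = b • v + y → a = b := fun a b x hx y hy e => by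
    by_contra hne
    refine hv' ((S.smul_mem_iff (sub_ne_zero.mpr hne)).mp ?_)
    rw [show (a - b) • v = y - x by rw [sub_smul]; exact sub_eq_sub_iff_add_eq_add.mpr (by
      rw [e, add_comm])]
    exact sub_mem hy hx
  have hmul : ∀ g h, f (g * h) = f g * τ g (f h) := fun g h => by
    obtain ⟨z, hz⟩ := hw h
    refine huniq _ _ _ (hw (g * h)) (τ g (f h) • w g + act g (w h))
      (add_mem (S.smul_mem _ (hw g)) ⟨act g z, by rw [← hz]; exact (a4 g q z).symm⟩) ?_
    rw [← hf, a2, hf h, a3, hf g, smul_add, smul_smul, mul_comm, add_assoc]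
  have hsc : ∀ g (a : k), β g = 1 → Q g = a • 1 → f g = ι a := fun g a h h' =>
    huniq _ _ _ (hw g) 0 S.zero_mem (by rw [← hf, a5 g a v h h', add_zero])
  have h0 : ∀ g, f g ≠ 0 := fun g h => by
    have := hmul g g⁻¹
    rw [mul_inv_cancel, hsc 1 1 (map_one _) (by simp), h] at this
    simp at this
  obtain ⟨D, hD, hu⟩ := exists_unit_of_cocycle (fun g => σ g) (fun g => τ g) hτ f h0 hmul
  have hu' : ∀ g, ∃ u : kˣ, f g * τ g D = ι u * D := fun g => by
    obtain ⟨_, h, e⟩ := hu g
    obtain ⟨_, ⟨u, rfl⟩, rfl⟩ := isUnit_iff_eq_C_of_isReduced.mp h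
    exact ⟨u, e⟩
  choose c hc' using hu'
  refine ⟨MonoidHom.mk' c fun g h => Units.ext (ι.injective (mul_right_cancel₀ hD ?_)),
    fun g a h h' => ι.injective (mul_right_cancel₀ hD ?_)⟩
  · rw [← hc', hmul, map_mul τ, mul_assoc, RingAut.mul_apply, ← map_mul, hc', map_mul, hι,
      mul_left_comm, hc', Units.val_mul, map_mul]
    ring
  · rw [MonoidHom.mk'_apply, ← hc', hsc g a h h', hτ1 g h]
    rfl

end H33.DG
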