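import Mathlib
import Cfsg.Agent.Lib.PGroup.Basic
import Cfsg.Agent.Lib.DadeGl.Core

/-!
Shifted cyclic subgroups act freely on permutation modules without fixed points.
-/

set_option autoImplicit false
set_option linter.unusedSectionVars false
set_option linter.style.haveILetI false

namespace H33.DG

open Finset Equiv Module

variable {k : Type*} [Field k] {q : ℕ} [hp : Fact (q + 1).Prime] [CharP k (q + 1)]

lemma sub_one_pow {A : Type*} [Ring A] [CharP A (q + 1)] {u : A} (h : u ^ (q + 1) = 1) :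
    (u - 1) ^ (q + 1) = 0 := by
  rw [sub_pow_char_of_commute _ (Commute.one_right u), h, one_pow, sub_self]

theorem core_end {I Γ T : Type*} [AddCommGroup T] [Module k T] [FiniteDimensional k T]
    [Fintype I] [Group Γ] [Finite Γ] (U : I → End k T) (hc : ∀ i j, Commute (U i) (U j))
    (hU : ∀ i, U i ^ (q + 1) = 1) (Q : Γ →* End k T) (β : Γ →* Perm I)
    (hQ : ∀ g i, Q g * U i = U (β g i) * Q g) (t : I → k) (l : T →ₗ[k] k) {ε : T} (h1 : l ε = 1)
    {Y : End k T} (hY : Y = ∑ i, t i • (U i - 1)) (h2 : Y ε = 0) (h3 : ∀ x, l (Y x) = 0)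
    (h4 : ∀ x, Y x = 0 → l x = 0 → x ∈ LinearMap.range (Y ^ q)) :
    ∃ c : Γ →* kˣ, ∀ g (a : k), β g = 1 → Q g = a • 1 → c g = a := by
  classical
  haveI : Nontrivial T := ⟨ε, 0, by rintro rfl; simp at h1⟩
  haveI : CharP (End k T) (q + 1) := charP_of_injective_algebraMap' k _
  let b := Module.finBasis k T
  let φ := LinearMap.toMatrixAlgEquiv b
  have hr : ∀ f : End k T, (φ f).rank = finrank k (LinearMap.range f) := fun f => by
    rw [Matrix.rank_eq_finrank_range_toLin _ b b]
    exact congrArg (fun g : End k T => finrank k (LinearMap.range g)) (φ.symm_apply_apply f)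
  have hc' : ∀ i j, Commute (U i - 1) (U j - 1) := fun i j =>
    ((hc i j).sub_left (Commute.one_left _)).sub_right (Commute.one_right _)
  have hl : finrank k (LinearMap.ker l) + 1 = finrank k T := by
    have := l.finrank_range_add_finrank_ker
    rw [LinearMap.range_eq_top.mpr fun a => ⟨a • ε, by simp [h1]⟩, finrank_top,
      finrank_self] at this
    omega
  have h5 : LinearMap.ker l ⊓ LinearMap.ker Y ≤ (LinearMap.ker l).map (Y ^ q) := by
    rintro x ⟨a1, a2⟩
    obtain ⟨y, rfl⟩ := h4 x a2 a1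
    obtain ⟨r, rfl⟩ := Nat.exists_eq_succ_of_ne_zero (n := q) (by have := hp.out.two_le; omega)
    exact ⟨y - l y • ε, by simp [h1], by simp [pow_succ, h2]⟩
  obtain ⟨c, hc⟩ := core_mat (fun i => φ (U i - 1)) (fun i j => (hc' i j).map φ)
    (fun i => by rw [← map_pow, sub_one_pow (hU i), map_zero]) ((φ : _ →* _).comp Q) β
    (fun g i => by simp [← map_mul, mul_sub, sub_mul, hQ]) t (by
      simp only [← map_smul, ← map_sum, ← hY, ← map_pow, hr, Fintype.card_fin]
      have e1 := Y.finrank_range_add_finrank_ker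
      have e2 := Submodule.finrank_sup_add_finrank_inf_eq (LinearMap.ker l) (LinearMap.ker Y)
      have e3 := Submodule.finrank_le (LinearMap.ker l ⊔ LinearMap.ker Y)
      have e4 := Submodule.finrank_mono (h5.trans LinearMap.map_le_range)
      omega) (by
      rw [Fintype.card_fin, ← hl, Nat.dvd_add_right (dvd_finrank (f := Y) ?_ ?_ h5)]
      · exact hp.out.not_dvd_one
      · rw [hY]
        exact sum_pow_eq_zero _ (fun i j => ((hc' i j).smul_left _).smul_right _) fun i => by
          rw [smul_pow, sub_one_pow (hU i), smul_zero]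
      · rintro _ ⟨x, -, rfl⟩
        exact h3 x)
  exact ⟨c, fun g a h h' => hc g a h (by simp [h'])⟩

lemma le_range_of_weyl {T : Type*} [AddCommGroup T] [Module k T] {Y D u : End k T}
    (h1 : D * Y = Y * D + u) (h2 : Commute u Y) {S : Submodule k T} (hS : S ≤ LinearMap.ker Y)
    (hu : S ≤ S.map u) : S ≤ LinearMap.range (Y ^ q) := by
  have h3 : ∀ j : ℕ, D * Y ^ (j + 1) = Y ^ (j + 1) * D + (j + 1 : k) • (u * Y ^ j) := fun j => by
    induction j with
    | zero => simp [h1]
    | succ j ih =>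
      rw [pow_succ, ← mul_assoc, ih, add_mul, mul_assoc, h1, smul_mul_assoc, mul_assoc u, ← pow_succ,
        mul_add, ← mul_assoc, ← pow_succ, ← (h2.pow_right _).eq]
      push_cast
      module
  suffices ∀ j ≤ q, S ≤ LinearMap.range (Y ^ j) from this q le_rfl
  intro j hj
  induction j with
  | zero => simp [End.one_eq_id]
  | succ j ih =>
    intro x hx
    obtain ⟨x, hx', rfl⟩ := hu hx
    obtain ⟨y, rfl⟩ := ih (by omega) hx'
    have h4 : (j + 1 : k) ≠ 0 := fun h => by
      have := Nat.le_of_dvd j.succ_pos ((CharP.cast_eq_zero_iff k (q + 1) _).mp (by exact_mod_cast h))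
      omega
    have h5 := congrArg (fun f : End k T => f y) (h3 j)
    have h6 : (Y ^ (j + 1)) y = 0 := by rw [pow_succ']; exact hS hx'
    simp only [End.mul_apply, h6, map_zero, LinearMap.add_apply, LinearMap.smul_apply] at h5
    exact ⟨-(j + 1 : k)⁻¹ • D y, by
      rw [map_smul, eq_neg_of_add_eq_zero_left h5.symm, smul_neg, neg_smul, neg_neg, smul_smul,
        inv_mul_cancel₀ h4, one_smul]⟩

variable {V Ω : Type*} [Group V] [Fintype V] [MulAction V Ω]

lemma exists_grading (hV : IsPGroup (q + 1) V) : ∃ (lam : Ω → V →* Multiplicative (ZMod (q + 1)))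
    (d : Ω → ZMod (q + 1)), (∀ (v : V) x, lam (v • x) = lam x) ∧
      (∀ (v : V) x, d (v • x) = (lam x v).toAdd + d x) ∧ ∀ x, lam x = 1 → ∀ v : V, v • x = x := by
  have h1 : ∀ x : Ω, ∃ l : V →* Multiplicative (ZMod (q + 1)), (∀ v : V, v • x = x → l v = 1) ∧
      (l = 1 → ∀ v : V, v • x = x) := fun x => by
    by_cases h : MulAction.stabilizer V x = ⊤
    · exact ⟨1, fun _ _ => rfl, fun _ v => h.ge (Subgroup.mem_top v)⟩
    obtain ⟨H, a1, a2, a3, a4⟩ := H5.exists_le_normal_index_eq hV h
    let e := mulEquivOfPrimeCardEq (G := V ⧸ H) (G' := Multiplicative (ZMod (q + 1))) a3 (by simp)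
    refine ⟨e.toMonoidHom.comp (QuotientGroup.mk' H), fun v hv => by simpa using a1 hv,
      fun h => (a4.1 (eq_top_iff.mpr fun v _ => ?_)).elim⟩
    simpa using DFunLike.congr_fun h v
  choose l l1 l2 using h1
  have h2 : ∀ x : Ω, ∃ v : V, v • (Quotient.mk (MulAction.orbitRel V Ω) x).out = x := fun x =>
    (MulAction.orbitRel V Ω).symm (Quotient.mk_out x)
  choose w hw using h2
  have h3 : ∀ (v : V) (x : Ω), Quotient.mk (MulAction.orbitRel V Ω) (v • x) = Quotient.mk _ x :=
    fun v x => Quotient.sound ⟨v, rfl⟩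
  refine ⟨fun x => l (Quotient.mk (MulAction.orbitRel V Ω) x).out,
    fun x => (l (Quotient.mk (MulAction.orbitRel V Ω) x).out (w x)).toAdd, fun v x => by simp only [h3],
    fun v x => ?_, fun x h v => by rw [← hw x, l2 _ h, l2 _ h]⟩
  have h4 := hw (v • x)
  simp only [h3] at h4 ⊢
  have := l1 _ ((w (v • x))⁻¹ * v * w x) (by rw [mul_smul, mul_smul, hw, inv_smul_eq_iff, h4])
  rw [map_mul, map_mul, map_inv, mul_assoc, inv_mul_eq_one] at this
  rw [this, toAdd_mul]

variable (k Ω) in
/-- The permutation representation on functions. -/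
def pm : V →* End k (Ω → k) where
  toFun v := LinearMap.funLeft k k fun x => v⁻¹ • x
  map_one' := by ext; simp
  map_mul' u v := by ext; simp [mul_smul]

/-- Diagonal operators. -/
def dia : (Ω → k) →ₐ[k] End k (Ω → k) := Algebra.lmul k (Ω → k)

lemma exists_point [Infinite k] : ∃ t : V → k, ∀ l : V →* Multiplicative (ZMod (q + 1)), l ≠ 1 →
    ∑ v, t v * ZMod.cast (l v).toAdd ≠ 0 := by
  classical
  haveI : Finite (V →* Multiplicative (ZMod (q + 1))) := DFunLike.finite _
  obtain ⟨t, ht⟩ := Module.Dual.exists_forall_ne_zero_of_forall_exists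
    (ι := {l : V →* Multiplicative (ZMod (q + 1)) // l ≠ 1}) (K := k) (M := V → k)
    (fun l => Fintype.linearCombination k fun v => (ZMod.cast (l.1 v).toAdd : k)) fun l => by
      obtain ⟨v, hv⟩ := DFunLike.ne_iff.mp l.2
      exact ⟨Pi.single v 1, by
        simpa using (map_ne_zero (ZMod.castHom (dvd_refl (q + 1)) k) (a := (l.1 v).toAdd)).mpr hv⟩
  exact ⟨t, fun l hl => by simpa [Fintype.linearCombination_apply] using ht ⟨l, hl⟩⟩

theorem mem_range_pm [Finite Ω] (hV : IsPGroup (q + 1) V)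
    (hc : ∀ (u v : V) (x : Ω), u • v • x = v • u • x) (hv : ∀ (v : V) (x : Ω), v ^ (q + 1) • x = x)
    {t : V → k} (ht : ∀ l : V →* Multiplicative (ZMod (q + 1)), l ≠ 1 →
      ∑ v, t v * ZMod.cast (l v).toAdd ≠ 0) {f : Ω → k} (h1 : (∑ v, t v • (pm k Ω v - 1)) f = 0)
    (h2 : ∀ x, (∀ v : V, v • x = x) → f x = 0) :
    f ∈ LinearMap.range ((∑ v, t v • (pm k Ω v - 1)) ^ q) := by
  classical
  rcases isEmpty_or_nonempty Ω with h | h
  · exact ⟨0, Subsingleton.elim _ _⟩
  haveI : CharP (End k (Ω → k)) (q + 1) := charP_of_injective_algebraMap' k _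
  obtain ⟨l, d, a1, a2, a3⟩ := exists_grading (Ω := Ω) hV
  let ι := ZMod.castHom (dvd_refl (q + 1)) k
  let L : V → Ω → k := fun v x => t v * ι (l x v).toAdd
  have c1 : ∀ u v : V, Commute (pm k Ω u) (pm k Ω v) := fun u v => by
    ext; simp [pm, hc]
  have c2 : ∀ (g : Ω → k), (∀ (v : V) x, g (v • x) = g x) → ∀ v : V, Commute (dia g) (pm k Ω v) :=
    fun g hg v => LinearMap.ext fun f => funext fun x => by simp [pm, dia, hg]
  have c3 : ∀ u v : V, Commute (dia (L u)) (pm k Ω v) := fun u => c2 _ fun v x => by simp [L, a1]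
  have c4 : ∀ g g' : Ω → k, Commute (dia g) (dia g') := fun g g' => (Commute.all g g').map _
  set Y := ∑ v, t v • (pm k Ω v - 1) with hY
  let u := ∑ v, dia (L v) * pm k Ω v
  have c5 : ∀ a, (∀ v : V, Commute a (pm k Ω v)) → Commute a Y := fun a h =>
    Commute.sum_right _ _ _ fun v _ => ((h v).sub_right (Commute.one_right _)).smul_right _
  have c6 : Commute u Y := c5 _ fun v => Commute.sum_left _ _ _ fun w _ => (c3 w v).mul_left (c1 w v)
  let S : Submodule k (Ω → k) := LinearMap.ker Y ⊓ ⨅ (x) (_ : ∀ v : V, v • x = x),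
    LinearMap.ker (LinearMap.proj x)
  have hS : ∀ f, f ∈ S ↔ Y f = 0 ∧ ∀ x, (∀ v : V, v • x = x) → f x = 0 := fun f => by simp [S]
  refine le_range_of_weyl (D := dia fun x => ι (d x)) (u := u) ?_ c6 (S := S) inf_le_left ?_
    ((hS f).mpr ⟨h1, h2⟩)
  · refine LinearMap.ext fun f => funext fun x => ?_
    have : ∀ v : V, ι (d x) = ι (l x v).toAdd + ι (d (v⁻¹ • x)) := fun v => by
      rw [← map_add, ← a1 v⁻¹ x, ← a2, smul_inv_smul]
    simp only [hY, u, pm, dia, L, End.mul_apply, LinearMap.add_apply, LinearMap.sum_apply,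
      LinearMap.smul_apply, LinearMap.sub_apply, Finset.sum_apply, MonoidHom.coe_mk, OneHom.coe_mk,
      Algebra.coe_lmul_eq_mul, LinearMap.mul_apply', Pi.mul_apply, Pi.add_apply, Pi.smul_apply,
      Pi.sub_apply, LinearMap.funLeft_apply, End.one_apply, smul_eq_mul, mul_sum,
      ← sum_add_distrib]
    exact sum_congr rfl fun v _ => by linear_combination t v * f (v⁻¹ • x) * this v
  have hu : ∀ f ∈ S, u f ∈ S := fun f hf => (hS _).mpr ⟨by
    rw [← End.mul_apply, ← c6.eq, End.mul_apply, ((hS f).mp hf).1, map_zero], fun x hx => by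
      simp [u, pm, dia, hx, ((hS f).mp hf).2 x hx]⟩
  have hn : (u - dia (∑ v, L v)) ^ (q + 1) = 0 := by
    simp only [u, map_sum, ← sum_sub_distrib, ← mul_sub_one]
    have c7 : ∀ v w : V, Commute (dia (L v)) (pm k Ω w - 1) := fun v w =>
      (c3 v w).sub_right (Commute.one_right _)
    refine sum_pow_eq_zero _ (fun v w => ((c4 _ _).mul_right (c7 v w)).mul_left
      ((c7 w v).symm.mul_right (((c1 v w).sub_left (Commute.one_left _)).sub_right
        (Commute.one_right _)))) fun v => ?_
    rw [(c7 v v).mul_pow, sub_one_pow (u := pm k Ω v), mul_zero]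
    rw [← map_pow]
    ext; simp [pm, ← inv_pow, hv]
  rw [sub_pow_char_of_commute _ (Commute.sum_left _ _ _ fun w _ => (c4 _ _).mul_left
    (c2 _ (fun v x => by simp [L, a1]) w).symm), sub_eq_zero, ← map_pow] at hn
  intro f hf
  obtain ⟨g, hg⟩ := LinearMap.surjective_of_injective (f := u.restrict hu) (by
    refine (injective_iff_map_eq_zero _).mpr fun g hg => Subtype.ext (funext fun x => ?_)
    by_contra hx
    have e := congrArg (fun a : End k (Ω → k) => a g x) hn
    have hg' : u g = 0 := congrArg Subtype.val hg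
    simp only [pow_succ _ q, End.mul_apply] at e
    rw [hg', map_zero, ← pow_succ] at e
    refine ht (l x) (fun h => hx (((hS _).mp g.2).2 x (a3 x h))) ?_
    simpa [dia, L, ι] using (mul_eq_zero.mp e.symm).resolve_right hx) ⟨f, hf⟩
  exact ⟨g, g.2, congrArg Subtype.val hg⟩

end H33.DG
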