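import Mathlib
import Cfsg.Agent.Lib.Blk86.Br
import Cfsg.Agent.Lib.Block.Alg
import Cfsg.Agent.Lib.DadeGl.Free

/-!
Comparison of the projective representations attached to Glauberman correspondents.
-/

set_option autoImplicit false
set_option linter.unusedSectionVars false
set_option linter.style.haveILetI false

namespace H33.DG

open Finset Equiv Module H86 MonoidAlgebra

variable {k G Γ : Type*} [Group G] [Finite G] [Group Γ] {N V : Subgroup G}

/-- `s` lifts the conjugation action on the block `e` of `N`. -/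
structure Lift [CommRing k] (N : Subgroup G) (e : k[G]) (π : Γ →* G) (s : Γ → k[G]) : Prop where
  supp : ∀ γ, Supp N (s γ)
  mul : ∀ γ δ, s (γ * δ) = s γ * s δ
  one : s 1 = e
  cj : ∀ γ x, Supp N x → s γ * x = cj (π γ) x * s γ
  inv : ∀ γ, H86.cj (π γ) e = e

variable [Field k] {q : ℕ} [hp : Fact (q + 1).Prime] [CharP k (q + 1)]

lemma Supp.cj_nor {x : k[G]} (h : Supp N x) {g : G} (hg : g ∈ Nor N) : Supp N (cj g x) :=
  mem_Nor_iff_cs.mp hg ▸ h.cj g

theorem exists_pow_eq [N.Normal] [Fintype V] (hV : IsPGroup (q + 1) V)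
    (h1 : ∀ u ∈ V, ∀ v ∈ V, u * v * u⁻¹ * v⁻¹ ∈ Cen N) (h2 : ∀ v ∈ V, v ^ (q + 1) ∈ Cen N) {t : V → k}
    (ht : ∀ l : V →* Multiplicative (ZMod (q + 1)), l ≠ 1 → ∑ v, t v * ZMod.cast (l v).toAdd ≠ 0)
    {Y : End k k[G]} (hY : Y = ∑ v : V, t v • ((cj (v : G)).toLinearMap - 1)) {x : k[G]}
    (hx : Supp N x) (h3 : Y x = 0) (h4 : br V x = 0) : ∃ y, Supp N y ∧ (Y ^ q) y = x := by
  letI : MulAction V N := MulAction.compHom N ((MulAut.conjNormal (H := N)).comp V.subtype)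
  have hs : ∀ (v : V) (n : N), ((v • n : N) : G) = v * n * (v : G)⁻¹ := fun _ _ => rfl
  let R : k[G] →ₗ[k] N → k :=
    { toFun x n := x.coeff n, map_add' _ _ := rfl, map_smul' _ _ := rfl }
  have hR : ∀ x n, R x n = x.coeff n := fun _ _ => rfl
  have r1 : ∀ x, R (Y x) = (∑ v, t v • (pm k N v - 1)) (R x) := fun x => by
    simp only [hY, LinearMap.sum_apply, LinearMap.smul_apply, LinearMap.sub_apply, map_sum,
      map_smul, map_sub, End.one_apply]
    refine sum_congr rfl fun v _ => congrArg (fun f => t v • (f - R x)) (funext fun n => ?_)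
    simp [hR, pm, coeff_cj, hs]
  have r2 : ∀ x, Supp N x → Supp N (Y x) := fun x hx g hg => by
    have : ∀ v : G, (cj v x).coeff g = 0 := fun v =>
      Supp.cj_nor hx (by rw [Nor, Subgroup.normalizer_eq_top]; trivial) g hg
    simp [hY, this, hx g hg]
  have r3 : ∀ j x, Supp N x →
      Supp N ((Y ^ j) x) ∧ R ((Y ^ j) x) = ((∑ v, t v • (pm k N v - 1)) ^ j) (R x) := fun j x hx => by
    induction j with
    | zero => exact ⟨hx, rfl⟩
    | succ j ih => rw [pow_succ', pow_succ', End.mul_apply, End.mul_apply, r1, ih.2]; exact ⟨r2 _ ih.1, rfl⟩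
  obtain ⟨f, hf⟩ := mem_range_pm (Ω := N) hV (fun u v n => Subtype.ext (by
    have := mem_Cen'.mp (h1 _ (V.inv_mem u.2) _ (V.inv_mem v.2)) n n.2
    simp only [hs, inv_inv] at this ⊢
    calc _ = v * u * ((u : G)⁻¹ * (v : G)⁻¹ * u * v) * n * (v : G)⁻¹ * (u : G)⁻¹ := by group
      _ = _ := by rw [← this]; group)) (fun v n => Subtype.ext (by
    rw [hs, Subgroup.coe_pow, ← mem_Cen.mp (h2 _ v.2) n n.2, mul_inv_cancel_right])) ht
    (f := R x) (by rw [← r1, h3, map_zero]) fun n hn => res_eq_zero_iff.mp h4 n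
      (mem_Cen'.mpr fun v hv => congrArg Subtype.val (hn ⟨v, hv⟩))
  classical
  have h5 : Supp N (mk fun g => if h : g ∈ N then f ⟨g, h⟩ else 0) := fun g hg => by simp [hg]
  refine ⟨_, h5, alg_ext fun g => ?_⟩
  by_cases hg : g ∈ N
  · have : R (mk fun g => if h : g ∈ N then f ⟨g, h⟩ else 0) = f := funext fun n => by simp [hR]
    exact congrFun ((r3 q _ h5).2.trans (this ▸ hf)) ⟨g, hg⟩
  · rw [(r3 q _ h5).1 g hg, hx g hg]

theorem step_alg [Infinite k] [Finite Γ] [N.Normal] (hV : IsPGroup (q + 1) V)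
    (h1 : ∀ u ∈ V, ∀ v ∈ V, u * v * u⁻¹ * v⁻¹ ∈ Cen N) (h2 : ∀ v ∈ V, v ^ (q + 1) ∈ Cen N) {e : k[G]}
    {s : G → k[G]} (hs : Lift N e (MonoidHom.id G) s) (h3 : ∀ v ∈ V, v ∈ Cen N → s v = e)
    {π : Γ →* G} {s' : Γ → k[G]} (hs' : Lift (N ⊓ Cen V) (br V e) π s') (hπ : ∀ γ, π γ ∈ Nor V)
    (hC : (Nat.card (N ⊓ Cen V : Subgroup G) : k) ≠ 0) (he : br V e ≠ 0)
    (hZ : ∀ z ∈ Zc k (N ⊓ Cen V), ∃ a : k, br V e * z = a • br V e) :
    ∃ c : Γ →* kˣ, ∀ γ (a : k), π γ ∈ Cen V → s' γ⁻¹ * s (π γ) = a • (br V e * e) → c γ = a := by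
  classical
  letI := Fintype.ofFinite V
  set C := N ⊓ Cen V
  letI := Fintype.ofFinite C
  set e' := br V e with he'
  have nN : ∀ g, g ∈ Nor N := fun g => by rw [Nor, Subgroup.normalizer_eq_top]; trivial
  have nC : ∀ g ∈ Nor V, g ∈ Nor C := fun g h => mem_Nor_inf (nN _) (Nor_le_Nor_Cen _ h)
  have e1 : Supp N e := hs.one ▸ hs.supp 1
  have e2 : Supp C e' := hs'.one ▸ hs'.supp 1
  have e3 : ∀ x, Supp N x → e * x = x * e := fun x hx => by simpa [hs.one, cj_one] using hs.cj 1 x hx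
  have e4 : Inv C e' := (br_mem_Fx (N := ⊤) ⟨e1, inv_iff_cj.mpr fun g _ => hs.inv g⟩).2.anti
    (le_inf le_top (inf_le_right.trans (Cen_le_Nor V)))
  have e5 : e * e = e := by simpa [hs.one] using (hs.mul 1 1).symm
  have e6 : e' * e' = e' := by simpa [hs'.one] using (hs'.mul 1 1).symm
  have vC : ∀ v ∈ V, ∀ x : k[G], Supp C x → cj v x = x := fun v hv x hx =>
    (hx.mono inf_le_right).inv_of_Cen.cj_eq hv
  have inC : ∀ x : k[G], (∀ y, Supp C y → x * y = y * x) → Inv C x := fun x h =>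
    inv_iff_cj.mpr fun c hc => cj_eq_iff_comm.mpr (h _ (.single hc 1)).symm
  set A := Fx k N C
  have mA : e' * e ∈ A := mul_mem ⟨e2.mono inf_le_left, e4⟩ ⟨e1, inv_iff_cj.mpr fun g _ => hs.inv g⟩
  have cA : ∀ x ∈ A, e' * e * x = x * (e' * e) := fun x hx => by
    rw [mul_assoc, e3 x hx.1, ← mul_assoc, ← hx.2.comm e2, mul_assoc]
  have iA : e' * e * (e' * e) = e' * e := by
    rw [mul_assoc, e3 _ mA.1, mul_assoc, e5, ← mul_assoc, e6]
  let T : Submodule k k[G] := A.toSubmodule ⊓ LinearMap.eqLocus (LinearMap.mulLeft k (e' * e)) 1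
  have mT : ∀ x, x ∈ T ↔ x ∈ A ∧ e' * e * x = x := fun x => Iff.rfl
  let op : A → A → End k T := fun a b => (LinearMap.mulLeftRight k (a.1, b.1)).restrict
    fun x hx => (mT _).mpr ⟨mul_mem (mul_mem a.2 hx.1) b.2, by
      simp only [LinearMap.mulLeftRight_apply, ← mul_assoc]
      rw [cA _ a.2, mul_assoc a.1, ((mT x).mp hx).2]⟩
  have ho : ∀ a b x, (op a b x : k[G]) = a * x * b := fun _ _ _ => rfl
  have t1 : ∀ x : T, e * x = x := fun x => by
    rw [← ((mT _).mp x.2).2, ← mul_assoc, e3 _ mA.1, mul_assoc e', e5]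
  have t2 : ∀ x : T, x * e = x := fun x => by rw [← e3 _ x.2.1.1, t1]
  have sA : ∀ v : V, s v ∈ A := fun v => ⟨hs.supp v, inC _ fun y hy => by
    rw [hs.cj _ _ (hy.mono inf_le_left), MonoidHom.id_apply, vC _ v.2 y hy]⟩
  have sc : ∀ u v : V, s u * s v = s v * s u := fun u v => by
    rw [← hs.mul, show (u * v : G) = u * v * (u : G)⁻¹ * (v : G)⁻¹ * (v * u) by group, hs.mul,
      h3 (u * v * (u : G)⁻¹ * (v : G)⁻¹) (u * v * u⁻¹ * v⁻¹).2 (h1 _ u.2 _ v.2), ← hs.one, ← hs.mul, one_mul,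
      hs.mul]
  have sp : ∀ (v : V) n, s v ^ (n + 1) = s (v ^ (n + 1)) := fun v n => by
    induction n with
    | zero => simp
    | succ n ih => rw [pow_succ, ih, ← hs.mul, ← pow_succ]
  have wc : ∀ γ y, Supp C y → s' γ⁻¹ * s (π γ) * y = y * (s' γ⁻¹ * s (π γ)) := fun γ y hy => by
    rw [mul_assoc, hs.cj _ _ (hy.mono inf_le_left), ← mul_assoc, MonoidHom.id_apply,
      hs'.cj _ _ (Supp.cj_nor hy (nC _ (hπ γ))), map_inv, cj_inv_cj, mul_assoc]
  have wA : ∀ γ, s' γ⁻¹ * s (π γ) ∈ A := fun γ =>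
    ⟨((hs'.supp _).mono inf_le_left).mul (hs.supp _), inC _ (wc γ)⟩
  let U : V × V → End k T := fun i => op ⟨_, sA i.1⟩ ⟨_, sA i.2⟩
  have w1 : s' 1⁻¹ * s (π 1) = e' * e := by rw [_root_.inv_one, map_one, hs.one, hs'.one]
  let Q : Γ →* End k T :=
    { toFun γ := op ⟨_, wA γ⟩ 1
      map_one' := LinearMap.ext fun x => Subtype.ext (by
        simp only [ho, OneMemClass.coe_one, mul_one, w1]; exact ((mT _).mp x.2).2)
      map_mul' γ δ := LinearMap.ext fun x => Subtype.ext (by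
        simp only [End.mul_apply, ho, OneMemClass.coe_one, mul_one]
        rw [← mul_assoc, ← mul_assoc (_ * _), wc γ _ (hs'.supp _), mul_inv_rev, hs'.mul, map_mul,
          hs.mul]
        simp only [mul_assoc]) }
  let φ : Γ →* MulAut V := V.normalizerMonoidHom.comp (π.codRestrict _ hπ)
  have hφ : ∀ γ v, (φ γ v : G) = π γ * v * (π γ)⁻¹ := fun _ _ => rfl
  let β : Γ →* Perm (V × V) :=
    { toFun γ := Equiv.prodCongr (φ γ).toEquiv (Equiv.refl _)
      map_one' := by ext <;> simp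
      map_mul' γ δ := by ext <;> simp }
  obtain ⟨t, ht⟩ := exists_point (V := V) (k := k) (q := q)
  set Y : End k k[G] := ∑ v : V, t v • ((cj (v : G)).toLinearMap - 1) with hY
  have y1 : ∀ x, Y x = ∑ v : V, t v • (cj (v : G) x - x) := fun x => by simp [hY]
  set Y' : End k T := ∑ i : V × V, (if i.2 = i.1⁻¹ then t i.1 else 0) • (U i - 1) with hY'
  have y2 : ∀ x, (Y' x : k[G]) = Y x := fun x => by
    simp only [hY', y1, Fintype.sum_prod_type, ite_smul, zero_smul, sum_ite_eq', mem_univ, if_true,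
      LinearMap.sum_apply, LinearMap.smul_apply, LinearMap.sub_apply, End.one_apply,
      Submodule.coe_sum, Submodule.coe_smul, Submodule.coe_sub, U, ho]
    refine sum_congr rfl fun v _ => ?_
    rw [hs.cj _ _ x.2.1.1, mul_assoc, ← hs.mul, Subgroup.coe_inv, mul_inv_cancel, hs.one,
      MonoidHom.id_apply, ← hs.inv v, MonoidHom.id_apply, ← map_mul, t2]
  have y3 : ∀ j x, ((Y' ^ j) x : k[G]) = (Y ^ j) x := fun j x => by
    induction j with
    | zero => rfl
    | succ j ih => rw [pow_succ', pow_succ', End.mul_apply, End.mul_apply, y2, ih]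
  obtain ⟨g0, hg0⟩ : ∃ g, e'.coeff g ≠ 0 := not_forall.mp fun h => he (alg_ext h)
  let l : T →ₗ[k] k :=
    { toFun x := (br V x.1).coeff g0 / e'.coeff g0
      map_add' x y := by simp [add_div]
      map_smul' a x := by simp [mul_div_assoc] }
  have l1 : ∀ x : T, l x = 0 → br V x.1 = 0 := fun x hx => by
    obtain ⟨a, ha⟩ := hZ (br V x.1) ⟨(br_mem_Fx x.2.1).1, (br_mem_Fx x.2.1).2.anti
      (le_inf le_rfl (inf_le_right.trans (Cen_le_Nor V)))⟩
    rw [← res_mul_of_supp (e2.mono inf_le_right), ← ((mT _).mp x.2).2, ← mul_assoc, ← mul_assoc,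
      e6, ((mT _).mp x.2).2] at ha
    have h0 : a = 0 := by simpa [l, ha, hg0] using hx
    rw [ha, h0, zero_smul]
  let P : End k k[G] := LinearMap.mulLeft k (e' * e) *
    ((Nat.card C : k)⁻¹ • ∑ c : C, (cj (c : G)).toLinearMap)
  have p1 : ∀ y, P y = e' * e * ((Nat.card C : k)⁻¹ • ∑ c : C, cj (c : G) y) := fun y => by
    simp [P, mul_sum, mul_assoc]
  have p2 : ∀ v : V, cj (v : G) (e' * e) = e' * e := fun v => by
    rw [map_mul, vC _ v.2 _ e2]; exact congrArg _ (hs.inv v)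
  have p3 : Commute P Y := Commute.sum_right _ _ _ fun v _ => (Commute.sub_right (LinearMap.ext
    fun y => by
      simp only [End.mul_apply, p1, AlgEquiv.toLinearMap_apply, map_mul, map_smul, map_sum, p2,
        ← cj_mul, mem_Cen.mp (inf_le_right (a := N) (Subtype.prop _)) _ v.2])
      (Commute.one_right _)).smul_right _
  have p4 : ∀ y, Supp N y → P y ∈ T := fun y hy => by
    have : (Nat.card C : k)⁻¹ • ∑ c : C, cj (c : G) y ∈ A := A.smul_mem
      ⟨fun g hg => by simp [fun c => Supp.cj_nor hy (nN c) g hg], inv_iff_cj.mpr fun d hd => by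
        simp only [map_sum, ← cj_mul]
        exact Equiv.sum_comp (Equiv.mulLeft (⟨d, hd⟩ : C)) fun c : C => cj (c : G) y⟩ _
    exact (mT _).mpr ⟨p1 y ▸ mul_mem mA this, by rw [p1, ← mul_assoc, iA]⟩
  have p5 : ∀ x : T, P x = x := fun x => by
    rw [p1, sum_congr rfl fun (c : C) _ => x.2.1.2.cj_eq c.2, sum_const, card_univ,
      ← Nat.card_eq_fintype_card, ← Nat.cast_smul_eq_nsmul k, smul_smul, inv_mul_cancel₀ hC,
      one_smul, ((mT _).mp x.2).2]
  obtain ⟨c, hc⟩ := core_end U (fun i j => LinearMap.ext fun x => Subtype.ext (by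
      simp only [End.mul_apply, U, ho, mul_assoc]
      rw [sc j.2, ← mul_assoc, sc i.1, mul_assoc]))
    (fun i => LinearMap.ext fun x => Subtype.ext (by
      have : ∀ n, ((U i ^ n) x : k[G]) = s i.1 ^ n * x * s i.2 ^ n := fun n => by
        induction n with
        | zero => simp
        | succ n ih => rw [pow_succ', End.mul_apply, ho, ih, pow_succ', pow_succ]; simp only [mul_assoc]
      rw [this, sp, sp, h3 _ (pow_mem i.1.2 _) (h2 _ i.1.2), h3 _ (pow_mem i.2.2 _) (h2 _ i.2.2), t1, t2,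
        End.one_apply])) Q β
    (fun γ i => LinearMap.ext fun x => Subtype.ext (by
      simp only [End.mul_apply, U, Q, β, ho, MonoidHom.coe_mk, OneHom.coe_mk, OneMemClass.coe_one,
        mul_one, ← mul_assoc, Equiv.prodCongr_apply, Prod.map_fst, Prod.map_snd, MulEquiv.toEquiv_eq_coe,
        EquivLike.coe_coe, Equiv.refl_apply]
      rw [(sA (φ γ i.1)).2.comm (hs'.supp _), mul_assoc (s' _) (s _), mul_assoc (s' _) (s _),
        ← hs.mul, ← hs.mul, hφ, inv_mul_cancel_right])) _ l (ε := ⟨_, (mT _).mpr ⟨mA, iA⟩⟩)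
    (by simp [l, res_mul_of_supp (e2.mono inf_le_right), ← he', e6, hg0]) hY'
    (Subtype.ext (by simp [y2, y1, p2])) (fun x => by
      have : ∀ v : V, br V (cj (v : G) x.1) = br V x.1 := fun v => by
        rw [← vC _ v.2 (br V x.1) (br_mem_Fx x.2.1).1, cj_br, cs_eq_of_mem v.2]
      simp [l, y2, y1, this]) fun x hx hl => by
      obtain ⟨y, hy, hy'⟩ := exists_pow_eq hV h1 h2 ht hY x.2.1.1 (by rw [← y2, hx]; rfl) (l1 x hl)
      refine ⟨⟨_, p4 y hy⟩, Subtype.ext ?_⟩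
      rw [y3, ← End.mul_apply, ← (p3.pow_right q).eq, End.mul_apply, hy', p5]
  refine ⟨c, fun γ a hγ ha => hc γ a ?_ (LinearMap.ext fun x => Subtype.ext ?_)⟩
  · ext i
    · simp [β, hφ, ← mem_Cen.mp hγ _ i.1.2]
    · simp [β]
  · simp [Q, ho, ha, ((mT _).mp x.2).2]

end H33.DG
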