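import Mathlib
import Cfsg.Agent.Lib.Block.Induced
import Cfsg.Agent.Lib.DadeGl.Step

/-!
Fourier inversion, and the lifts attached to extensions of characters.
-/

set_option autoImplicit false
set_option linter.unusedSectionVars false
set_option linter.style.haveILetI false

attribute [local irreducible] H33.instFieldF

namespace H33.DG

open Finset Module H86 MonoidAlgebra Cfsg
open scoped ComplexConjugate

section four
variable {N W : Type*} [Group N] [Fintype N] [AddCommGroup W] [Module ℂ W] [FiniteDimensional ℂ W]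
  (σ : Representation ℂ N W) [σ.IsIrreducible]

lemma avg_conj (X : End ℂ W) : (finrank ℂ W : ℂ) • ∑ n, σ n * X * σ n⁻¹ =
    (Nat.card N * LinearMap.trace ℂ W X) • (1 : End ℂ W) := by
  obtain ⟨c, hc⟩ := H6.schur_scalar σ (∑ n, σ n * X * σ n⁻¹) fun g => by
    change (∑ n, σ n * X * σ n⁻¹) * σ g = σ g * ∑ n, σ n * X * σ n⁻¹
    rw [sum_mul, mul_sum, ← Equiv.sum_comp (Equiv.mulLeft g)]
    simp only [Equiv.coe_mulLeft, mul_assoc, ← map_mul, mul_inv_rev, inv_mul_cancel, mul_one]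
    simp only [map_mul, mul_assoc]
  have h := congrArg (LinearMap.trace ℂ W) hc
  simp only [map_sum, LinearMap.trace_mul_comm ℂ (_ * X), ← mul_assoc, ← map_mul, inv_mul_cancel,
    map_one, one_mul, sum_const, card_univ, nsmul_eq_mul, map_smul, LinearMap.trace_id,
    smul_eq_mul] at h
  rw [hc, smul_smul, Nat.card_eq_fintype_card, h, mul_comm]; rfl

lemma four_inv (T : End ℂ W) :
    (finrank ℂ W : ℂ) • ∑ n, LinearMap.trace ℂ W (T * σ n⁻¹) • σ n = (Nat.card N : ℂ) • T := by
  have h : ∀ (φ : W →ₗ[ℂ] ℂ) (v : W), (finrank ℂ W : ℂ) •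
      ∑ n, LinearMap.trace ℂ W (φ.smulRight v * σ n⁻¹) • σ n = (Nat.card N : ℂ) • φ.smulRight v :=
    fun φ v => LinearMap.ext fun w => by
      have h1 := LinearMap.congr_fun (avg_conj σ (φ.smulRight w)) v
      have h2 : ∀ n, LinearMap.trace ℂ W (φ.smulRight v * σ n⁻¹) = φ (σ n⁻¹ v) := fun n => by
        rw [show φ.smulRight v * σ n⁻¹ = (φ ∘ₗ σ n⁻¹).smulRight v from rfl,
          LinearMap.trace_smulRight]; rfl
      simpa [h2, LinearMap.trace_smulRight, smul_smul] using h1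
  let b := finBasis ℂ W
  have hT : T = ∑ i, (b.coord i).smulRight (T (b i)) := b.ext fun j => by
    simp [Finsupp.single_apply]
  rw [hT]
  simp only [sum_mul, map_sum, sum_smul, smul_sum, ← h]
  rw [sum_comm]

end four

theorem four {N Γ : Type*} [Group N] [Fintype N] [Group Γ] {τ : Γ → ℂ} (hτ : IsCharacter Γ τ)
    (ι : N →* Γ) (h : IsIrrCharacter N fun n => τ (ι n)) (x y : Γ) :
    τ 1 * ∑ n, τ (x * (ι n)⁻¹) * τ (ι n * y) = Nat.card N * τ (x * y) := by
  obtain ⟨d, ρ, rfl⟩ := hτ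
  haveI : Representation.IsIrreducible (ρ.comp ι) := (H6.isIrrCharacter_character_iff _).1 h
  have := congrArg (fun T => LinearMap.trace ℂ _ (T * ρ y)) (four_inv (ρ.comp ι) (ρ x))
  simpa [Representation.character, sum_mul, ← map_inv] using this

variable {p : ℕ} [Fact p.Prime] {M : Ideal AlgInt} [M.IsMaximal] {G Γ : Type*} [Group G] [Finite G]
  [Group Γ] [Finite Γ] {K : Subgroup G}

theorem exists_lift (hM : IsPModular p M) (hK : ¬ p ∣ Nat.card K) (θ : IrrCharacter K)
    (π : Γ →* G) (hπ : ∀ γ, π γ ∈ Nor K) {τ : Γ → ℂ} (hτ : IsCharacter Γ τ) (ι : K →* Γ)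
    (h1 : ∀ k, τ (ι k) = θ.1 k)
    (h2 : ∀ γ (k k' : K), (k' : G) = π γ * k * (π γ)⁻¹ → ι k' = γ * ι k * γ⁻¹) :
    ∃ s, Lift K (eS M K {θ}) π s ∧ ∀ γ (k : K), ∀ a ∈ O M,
      (∀ n : K, τ (γ * (ι n)⁻¹) = a * θ.1 (k * n⁻¹)) →
        s γ = red M a • (single (k : G) 1 * eS M K {θ}) := by
  letI := Fintype.ofFinite K
  have hirr : IsIrrCharacter K fun n => τ (ι n) := by simpa only [h1] using θ.2
  have hc := H6.char_isClassFunction hτ
  let S : Γ → ℂ[K] := fun γ => mk fun n => (Nat.card K : ℂ)⁻¹ * (τ 1 * τ (γ * (ι n)⁻¹))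
  have t1 : τ 1 = θ.1 1 := by rw [← h1, map_one]
  have hO : ∀ γ, S γ ∈ OG M K := fun γ => mk_mem_OG fun n => mul_mem (natCast_inv_mem_O hM hK)
    (mul_mem (mem_O_of_isIntegral M (H6.char_isIntegral hτ _))
      (mem_O_of_isIntegral M (H6.char_isIntegral hτ _)))
  have s1 : S 1 = fB {θ} := alg_ext fun n => by
    simp [S, blockCoeff_singleton, t1, ← irr_inv, ← map_inv, h1]
  have sm : ∀ γ δ, S (γ * δ) = S γ * S δ := fun γ δ => alg_ext fun n => by
    have h0 : (Nat.card K : ℂ) ≠ 0 := H6.card_ne_zero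
    have := four hτ ι hirr γ (δ * (ι n)⁻¹)
    simp only [S, H33.coeff_mul_sum, coeff_mk, map_mul, map_inv, mul_inv_rev, inv_inv,
      ← mul_assoc δ, H6.classFun_mul_comm hc _ (ι _), mul_assoc γ]
    rw [← (mul_right_inj' h0), mul_left_comm, mul_left_comm _ (τ 1), ← this]
    simp only [mul_sum]
    refine sum_congr rfl fun m _ => ?_
    field_simp
  have key : ∀ γ x, Supp K x → emb K.subtype (redA M (S γ)) * x =
      cj (π γ) x * emb K.subtype (redA M (S γ)) := fun γ x hx => by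
    obtain ⟨x, rfl⟩ := exists_emb_subtype hx
    clear hx
    induction x using MonoidAlgebra.induction_linear with
    | zero => simp
    | add x y hx hy => simp only [map_add, mul_add, add_mul, hx, hy]
    | single k r =>
      let k' : K := ⟨π γ * k * (π γ)⁻¹, (mem_Nor.1 (hπ γ) _).1 k.2⟩
      rw [← map_mul, emb_single, cj_single, show π γ * K.subtype k * (π γ)⁻¹ = K.subtype k' from rfl,
        ← emb_single, ← map_mul]
      refine congrArg _ (alg_ext fun n => ?_)
      simp only [coeff_mul_single_apply, coeff_single_mul_apply, coeff_redA, S, coeff_mk, map_mul,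
        map_inv, mul_inv_rev, inv_inv, h2 γ k k' rfl, mul_comm r]
      rw [← hc (γ * ((ι n)⁻¹ * _)) (γ * ι k * γ⁻¹)]
      congr 5; group
  have one : emb K.subtype (redA M (S 1)) = eS M K {θ} := by rw [s1]; rfl
  have mul : ∀ γ δ, emb K.subtype (redA M (S (γ * δ))) =
      emb K.subtype (redA M (S γ)) * emb K.subtype (redA M (S δ)) := fun γ δ => by
    rw [sm, redA_mul (hO _) (hO _), map_mul]
  refine ⟨fun γ => emb K.subtype (redA M (S γ)), ⟨fun γ => supp_emb_subtype _, mul, one, key,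
    fun γ => ?_⟩, fun γ k a ha h => ?_⟩
  · have h3 : ∀ γ, eS M K {θ} = cj (π γ) (eS M K {θ}) * eS M K {θ} := fun γ => by
      have := congrArg (· * emb K.subtype (redA M (S γ⁻¹))) (key γ _ (supp_emb_subtype (eB M {θ})))
      change _ * eS M K {θ} * _ = cj _ (eS M K {θ}) * _ * _ at this
      rwa [mul_assoc (cj _ _), ← mul, mul_inv_cancel, one, ← one, ← mul, ← mul, mul_one,
        mul_inv_cancel, one] at this
    have h4 := congrArg (cj (π γ)) (h3 γ⁻¹)
    rw [map_mul, map_inv, cj_cj_inv, (eS_mem_Zc K _).2.comm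
      (Supp.cj_nor (eS_mem_Zc K _).1 (hπ γ)), ← h3] at h4
    exact h4
  · rw [← one, show (k : G) = K.subtype k from rfl, ← emb_single, ← map_mul, ← map_smul, ← redA_single_one, ← redA_mul
        (single_one_mem_OG _) (hO _), ← redA_smul ha (mul_mem (single_one_mem_OG _) (hO _))]
    refine congrArg _ (congrArg _ (alg_ext fun n => ?_))
    simp only [S, coeff_mk, h, coeff_smul_apply', coeff_single_mul_apply, one_mul]
    rw [← map_inv, h1, mul_inv_rev, inv_inv, H6.classFun_mul_comm (irr_isClassFunction θ) k]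
    ring

theorem exists_smul (hM : IsPModular p M) (hK : ¬ p ∣ Nat.card K) (θ : IrrCharacter K) :
    ∀ z ∈ Zc (F M) K, ∃ a : F M, eS M K {θ} * z = a • eS M K {θ} := fun z hz => by
  obtain ⟨z, rfl⟩ := exists_emb_subtype hz.1
  obtain ⟨w, hw, hc, rfl⟩ := (emb_subtype_mem_Zc.1 hz).exists_lift
  have hO : fB {θ} ∈ OG M K := mk_mem_OG fun n => blockCoeff_singleton θ n ▸
    mul_mem (natCast_inv_mem_O hM hK) (mul_mem (irr_mem_O M _ _) (irr_conj_mem_O M _ _))
  refine ⟨red M (omega θ.1 w), ?_⟩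
  rw [eS, ← map_mul, ← map_smul, eB, ← redA_mul hO hw, ← redA_smul (omega_mem_O θ hc hw) hO]
  refine congrArg _ (congrArg _ (((isCent_fB _).mul hc).ext_omega ((isCent_fB _).smul _) fun χ => ?_))
  rw [omega_cent_mul _ (isCent_fB _), map_smul, smul_eq_mul, mul_comm]
  by_cases h : χ = θ
  · rw [h]
  · rw [omega_fB_of_not_mem (B := {θ}) h, mul_zero, mul_zero]

end H33.DG
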