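import Mathlib
import Cfsg.Agent.Lib.Block.Fong
import Cfsg.Agent.Lib.Block.ModRank
import Cfsg.Agent.Lib.Char.ExtMain
import Cfsg.Agent.Lib.DadeGl.Four

/-!
The Dade–Glauberman theorem: if a character of a normal `p'`-subgroup extends, so does its
Glauberman correspondent.
-/

set_option autoImplicit false
set_option linter.unusedSectionVars false
set_option linter.style.haveILetI false

attribute [local irreducible] H33.instFieldF

namespace H33.DG

open Finset Module H86 MonoidAlgebra Cfsg H31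

universe u

theorem exists_cext {G : Type u} [Group G] [Finite G] (N : Subgroup G) [hN : N.Normal] {ϑ : N → ℂ}
    (hϑ : IsIrrCharacter N ϑ)
    (hinv : ∀ (g : G) (n : N), ϑ ⟨g * n * g⁻¹, hN.conj_mem (n : G) n.2 g⟩ = ϑ n) :
    ∃ (Γ : Type u) (_ : Group Γ) (_ : Finite Γ) (π : Γ →* G) (τ : Γ → ℂ)
      (ν : N.comap π →* ℂˣ), IsCentralExt N ϑ π τ ν ∧ ∀ x, ν x ^ (Nat.card N * Nat.card N) = 1 := by
  obtain ⟨m, hm⟩ : charDegree ϑ ∣ Nat.card N := charDegree_dvd_card ⟨ϑ, hϑ⟩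
  have hd : ϑ 1 = charDegree ϑ := irr_one_eq_charDegree ⟨ϑ, hϑ⟩
  obtain ⟨d, Θ, hΘ, rfl⟩ := hϑ
  haveI := isIrreducible_extRep N Θ
  refine ⟨extGroup N Θ, inferInstance, finite_extGroup N Θ, extProj N Θ, (extRep N Θ).character,
    (extScalar N Θ).toHomUnits⁻¹, ⟨extProj_surjective N Θ hinv, ker_le_center N Θ,
    H6.isIrrCharacter_character _, fun y x => ?_, fun x => ?_, fun x hx h => ?_,
    (extSection N Θ).codRestrict _ (fun n => n.2), fun n => rfl, fun n => ?_⟩, fun x => ?_⟩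
  · simp only [MonoidHom.inv_apply, inv_inj]
    exact Units.ext (extScalar_conj N Θ y x _)
  · have h0 : extScalar N Θ x ≠ 0 := ((extScalar N Θ).toHomUnits x).ne_zero
    simp only [Representation.character, extScalar_spec, map_smul, smul_eq_mul,
      MonoidHom.inv_apply, Units.val_inv_eq_inv_val, MonoidHom.coe_toHomUnits]
    field_simp
  · apply eq_one_of_extScalar N Θ x hx
    rw [MonoidHom.inv_apply, inv_eq_one] at h
    exact congrArg Units.val h
  · rw [MonoidHom.inv_apply, inv_eq_one]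
    apply Units.ext
    apply smul_rep_injective N Θ n
    rw [Units.val_one, one_smul]
    exact (extScalar_spec N Θ ⟨extSection N Θ n, n.2⟩).symm
  · have h : LinearMap.det (extRep N Θ x) ^ Nat.card N = 1 := x.1.2.2
    rw [extScalar_spec, LinearMap.det_smul, mul_pow, ← map_pow LinearMap.det, ← map_pow Θ,
      pow_card_eq_one',
      map_one, map_one, mul_one, ← pow_mul] at h
    rw [Representation.char_one, Nat.cast_inj] at hd
    rw [MonoidHom.inv_apply, inv_pow, inv_eq_one]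
    apply Units.ext
    rw [Units.val_pow_eq_pow_val, MonoidHom.coe_toHomUnits]
    nth_rw 1 [hm]
    rw [← hd, mul_right_comm, pow_mul, h, one_pow, Units.val_one]

theorem exists_sec {G Γ : Type*} [Group G] [Group Γ] {N : Subgroup G} [hN : N.Normal] {ϑ : N → ℂ}
    {π : Γ →* G} {τ : Γ → ℂ} {ν : N.comap π →* ℂˣ} (h : IsCentralExt N ϑ π τ ν) :
    ∃ ι : N →* Γ, (∀ n, π (ι n) = n) ∧ (∀ n h, ν ⟨ι n, h⟩ = 1) ∧
      ∀ γ (k k' : N), (k' : G) = π γ * k * (π γ)⁻¹ → ι k' = γ * ι k * γ⁻¹ := by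
  obtain ⟨ι, h1, h2⟩ := h.sec
  refine ⟨(N.comap π).subtype.comp ι, h1, fun n _ => h2 n, fun γ k k' hk => ?_⟩
  have := h.faithful ((ι k')⁻¹ * ⟨γ * ι k * γ⁻¹, (hN.comap π).conj_mem _ (ι k).2 γ⟩)
    (by simp [h1, hk, mul_assoc]) (by rw [map_mul, h.inv, map_inv, h2, h2]; simp)
  exact congrArg Subtype.val (inv_mul_eq_one.1 this)

variable {p : ℕ} [hp : Fact p.Prime] {M : Ideal AlgInt} [M.IsMaximal]

section
variable {G : Type u} [Group G] [Finite G] {K N V P C : Subgroup G}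

theorem cj_eS_iff (hM : IsPModular p M) (hK : ¬ p ∣ Nat.card K) (θ : IrrCharacter K) {g : G}
    (hg : g ∈ Nor K) : cj g (eS M K {θ}) = eS M K {θ} ↔
      ∀ c c' : K, (c' : G) = g * c * g⁻¹ → θ.1 c' = θ.1 c := by
  have hb := H34.isPBlock_singleton hM hK
  rw [← eS_image_trI g (mem_Nor_iff_cs.1 hg), Set.image_singleton, ← eq_trI_csEquiv_iff g
    (mem_Nor_iff_cs.1 hg)]
  exact ⟨fun h => (Set.singleton_injective (eS_inj (hb _) (hb _) h)).symm, fun h => by rw [← h]⟩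

theorem exists_glaub (hM : IsPModular p M) (hN : ¬ p ∣ Nat.card N) (hP : IsPGroup p P)
    (hPN : P ≤ Nor N) {θ : IrrCharacter N} (hi : Inv P (eS M N {θ})) (hC : C = N ⊓ Cen P) :
    ∃ θ' : IrrCharacter C, eS M C {θ'} = br P (eS M N {θ}) := by
  haveI := charP hM
  haveI := good hM G
  subst hC
  obtain ⟨b, hb, h⟩ := (H34.isBlk_br_of_not_dvd hN hP hPN
    (isBlk_eS (H34.isPBlock_singleton hM hN θ)) hi).exists_eS
  obtain ⟨θ', h'⟩ := block_nonempty hb
  exact ⟨θ', by rw [h, block_eq_of_mem hb (H34.isPBlock_singleton hM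
    (fun e => hN (e.trans (Subgroup.card_dvd_of_le inf_le_left))) θ') h' rfl]⟩

theorem step [N.Normal] (hM : IsPModular p M) (hN : ¬ p ∣ Nat.card N) (hV : IsPGroup p V)
    (h1 : ∀ u ∈ V, ∀ v ∈ V, u * v * u⁻¹ * v⁻¹ ∈ Cen N) (h2 : ∀ v ∈ V, v ^ p ∈ Cen N)
    {θ : IrrCharacter N} {χ : G → ℂ} (hχ : IsCharacter G χ) (hext : ∀ n : N, χ n = θ.1 n)
    (hC : C = N ⊓ Cen V) {θ' : IrrCharacter C} (h : eS M C {θ'} = br V (eS M N {θ})) :
    ∃ χ' : Nor V → ℂ, IsCharacter (Nor V) χ' ∧ ∀ (c : C) (x : Nor V), (c : G) = x → χ' x = θ'.1 c := by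
  haveI := charP hM
  obtain ⟨q, rfl⟩ := Nat.exists_eq_succ_of_ne_zero hp.out.ne_zero
  have nN : ∀ g, g ∈ Nor N := fun g => by rw [Nor, Subgroup.normalizer_eq_top]; trivial
  have nC : Nor V ≤ Nor C := fun g h => hC ▸ mem_Nor_inf (nN _) (Nor_le_Nor_Cen _ h)
  have hCV : C ≤ Nor V := hC ▸ inf_le_right.trans (Cen_le_Nor V)
  have hK : ¬ q + 1 ∣ Nat.card C := fun e =>
    hN (e.trans (Subgroup.card_dvd_of_le (hC ▸ inf_le_left)))
  obtain ⟨s, hs, hs1⟩ := exists_lift hM hN θ (MonoidHom.id G) nN hχ N.subtype hext fun _ _ _ h => h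
  haveI : (C.subgroupOf (Nor V)).Normal := Subgroup.normal_subgroupOf_of_le_normalizer nC
  obtain ⟨Γ, _, _, π, τ, ν, hc, hν⟩ := exists_cext (C.subgroupOf (Nor V))
    (H7.isIrr_subgroupOf hCV θ'.2) fun g n => (cj_eS_iff hM hK θ' (nC g.2)).1 (by
      rw [h, cj_br, mem_Nor_iff_cs.1 g.2]; exact congrArg _ (hs.inv g)) _ _ rfl
  obtain ⟨ι, i1, i2, i3⟩ := exists_sec hc
  let ε := (Subgroup.subgroupOfEquivOfLe hCV).symm
  have i4 : ∀ (γ : (C.subgroupOf (Nor V)).comap π) (n : C),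
      τ (γ * (ι (ε n))⁻¹) = ((ν γ)⁻¹ : ℂˣ) * θ'.1 (⟨π γ, γ.2⟩ * n⁻¹) := fun γ n => by
    have hn : ι (ε n) ∈ (C.subgroupOf (Nor V)).comap π := by simp [i1]
    have := hc.eq (γ * ⟨_, hn⟩⁻¹)
    rw [map_mul, map_inv, i2, _root_.inv_one, mul_one] at this
    rw [eq_comm, Units.inv_mul_eq_iff_eq_mul, mul_comm (ν γ : ℂ)]
    refine Eq.trans (congrArg _ (Subtype.ext ?_)) this.symm
    simp [i1]; rfl
  obtain ⟨s', hs', hs2⟩ := exists_lift hM hK θ' ((Nor V).subtype.comp π) (fun γ => nC (π γ).2)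
    (H6.irr_isCharacter hc.irr) (ι.comp ε.toMonoidHom) (fun k => by
      simpa using (i4 1 k⁻¹).trans (congrArg _ (congrArg _ (Subtype.ext (show _ = (k : G) by simp)))))
    fun γ k k' hk => i3 γ _ _ (Subtype.ext hk)
  have he := (isBlk_eS (H34.isPBlock_singleton hM hN θ)).ne
  have hZ := exists_smul hM hK θ'
  have hO : ∀ γ, (ν γ : ℂ) ^ (Nat.card C * Nat.card C) = 1 := fun γ => by
    rw [← Nat.card_congr (Subgroup.subgroupOfEquivOfLe hCV).toEquiv, ← Units.val_pow_eq_pow_val,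
      hν, Units.val_one]
  have hs3 := fun γ k => hs2 γ k
  rw [h] at hs' hZ hs3
  subst hC
  obtain ⟨c, hc'⟩ := step_alg hV h1 h2 hs (fun v hv hv' => by
      obtain ⟨a, ha⟩ := exists_smul hM hN θ (s v) ⟨hs.supp v, inv_iff_cj.2 fun n hn => by
        rw [cj_eq_iff_comm, hs.cj _ _ (.single hn 1), cj_single, MonoidHom.id_apply,
          ← mem_Cen.1 hv' n hn, mul_inv_cancel_right]⟩
      rw [← hs.one, ← hs.mul, one_mul, hs.one] at ha
      have h3 : ∀ j, s (v ^ j) = a ^ j • eS M N {θ} := fun j => by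
        induction j with
        | zero => simp [hs.one]
        | succ j ih => rw [pow_succ, hs.mul, ih, ha, smul_mul_smul, ← pow_succ, ← hs.one, ← hs.mul,
            one_mul]
      obtain ⟨j, hj⟩ := hV ⟨v, hv⟩
      have h4 := h3 ((q + 1) ^ j)
      rw [show v ^ (q + 1) ^ j = 1 from congrArg Subtype.val hj, hs.one, eq_comm,
        ← sub_eq_zero, ← one_smul (F M) (eS M N {θ}), smul_smul, mul_one, ← sub_smul,
        smul_eq_zero_iff_left he] at h4
      have h5 : (a - 1) ^ (q + 1) ^ j = 0 := by rw [sub_pow_char_pow, one_pow, h4]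
      rw [ha, sub_eq_zero.1 (pow_eq_zero_iff (by positivity) |>.1 h5), one_smul]) hs' (fun γ => (π γ).2)
    (by rw [Ne, natCast_F_eq_zero_iff hM]; exact hK)
    (h ▸ (isBlk_eS (H34.isPBlock_singleton hM hK θ')).ne) hZ
  obtain ⟨μ, hμ⟩ := exists_hom_ext_of_commutator _ ν fun γ hγ => Units.ext <|
    eq_one_of_red_eq_one hM (fun e => (hp.out.dvd_mul.1 e).elim hK hK) (hO γ) (by
      rw [← hc' γ (red M (ν γ)) γ.2.2, Abelianization.commutator_subset_ker c hγ, Units.val_one]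
      rw [hs3 γ⁻¹ ⟨π γ, γ.2⟩⁻¹ _ (mem_O_of_pow_eq_one M (mul_ne_zero Nat.card_pos.ne' Nat.card_pos.ne') (hO γ))
        (fun n => (i4 γ⁻¹ n).trans (by simp; rfl)), hs1 _ ⟨π γ, γ.2.1⟩ 1 (one_mem _)
        (fun n => by rw [one_mul, ← hext]; rfl), red_one, one_smul, smul_mul_assoc, ← h,
        ← (eS_mem_Zc _ _).2.comm (.single (Subtype.prop _) 1), mul_assoc, ← mul_assoc (single _ _),
        single_mul_single]
      simp [← one_def])
  obtain ⟨χ', h5, h6⟩ := hc.extends_of_hom μ hμ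
  exact ⟨χ', H6.irr_isCharacter h5, fun c x hx => (h6 ⟨x, show (x : G) ∈ _ from hx ▸ c.2⟩).trans
    (congrArg _ (Subtype.ext hx.symm))⟩

theorem exists_layer {G : Type*} [Group G] [Finite G] {N P : Subgroup G} [N.Normal]
    (hP : IsPGroup p P) (h : ¬ P ≤ Cen N) : ∃ V ≤ P, ¬ V ≤ Cen N ∧ Nor P ≤ Nor V ∧
      (∀ u ∈ V, ∀ v ∈ V, u * v * u⁻¹ * v⁻¹ ∈ Cen N) ∧ ∀ v ∈ V, v ^ p ∈ Cen N := by
  let φ := QuotientGroup.mk' (Cen N)
  have hφ : ∀ x, φ x = 1 ↔ x ∈ Cen N := QuotientGroup.eq_one_iff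
  let V : Subgroup G :=
    { carrier := {v | v ∈ P ∧ φ v ^ p = 1 ∧ ∀ u ∈ P, Commute (φ u) (φ v)}
      one_mem' := by simp
      mul_mem' {a b} ha hb := ⟨mul_mem ha.1 hb.1, by
        rw [map_mul, (hb.2.2 a ha.1).mul_pow, ha.2.1, hb.2.1, mul_one], fun u hu =>
        map_mul φ a b ▸ (ha.2.2 u hu).mul_right (hb.2.2 u hu)⟩
      inv_mem' {a} ha := ⟨inv_mem ha.1, by rw [map_inv, inv_pow, ha.2.1, _root_.inv_one],
        fun u hu => map_inv φ a ▸ (ha.2.2 u hu).inv_right⟩ }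
  refine ⟨V, fun v hv => hv.1, fun hV => ?_, fun g hg => Subgroup.mem_normalizer_fintype
    fun v hv => ⟨(mem_Nor.1 hg v).1 hv.1, by simp [conj_pow, hv.2.1], fun u hu => ?_⟩,
    fun u hu v hv => (hφ _).1 (by simp [(hv.2.2 u hu.1).eq]), fun v hv => (hφ _).1 hv.2.1⟩
  · haveI : Nontrivial (P.map φ) := (Subgroup.nontrivial_iff_ne_bot _).2 fun e =>
      h (by rwa [Subgroup.map_eq_bot_iff, QuotientGroup.ker_mk'] at e)
    haveI := (hP.map φ).center_nontrivial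
    obtain ⟨k, hk, hk'⟩ := ((hP.map φ).to_subgroup (Subgroup.center _)).nontrivial_iff_card.1 this
    obtain ⟨⟨⟨_, z, hz, rfl⟩, hc⟩, ho⟩ := exists_prime_orderOf_dvd_card' (G := Subgroup.center (P.map φ))
      p (hk' ▸ dvd_pow_self p hk.ne')
    rw [← Subgroup.orderOf_coe, ← Subgroup.orderOf_coe] at ho
    have := (hφ z).2 (hV ⟨hz, ho ▸ pow_orderOf_eq_one _, fun u hu =>
      congrArg Subtype.val (Subgroup.mem_center_iff.1 hc ⟨_, u, hu, rfl⟩)⟩)
    exact hp.out.ne_one (by simpa [this] using ho.symm)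
  · have := (hv.2.2 _ ((mem_Nor.1 (inv_mem hg) u).1 hu)).conj (φ g)
    simpa [mul_assoc] using this

end

/-- The Dade–Glauberman theorem. -/
theorem dg (hM : IsPModular p M) {G : Type u} [Group G] [Finite G] (N : Subgroup G) [N.Normal]
    (hN : ¬ p ∣ Nat.card N) {P : Subgroup G} (hP : IsPGroup p P) {θ : IrrCharacter N} {χ : G → ℂ}
    (hχ : IsCharacter G χ) (hext : ∀ n : N, χ n = θ.1 n) {D L : Subgroup G} (hD : D = N ⊓ Cen P)
    (hL : L ≤ Nor P) {θ' : IrrCharacter D} (h : eS M D {θ'} = br P (eS M N {θ})) :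
    ∃ χ' : L → ℂ, IsCharacter L χ' ∧ ∀ (d : D) (x : L), (d : G) = x → χ' x = θ'.1 d := by
  induction hn : Nat.card N using Nat.strong_induction_on generalizing G with
  | _ n ih =>
  have hb := H34.isPBlock_singleton hM hN
  by_cases hPN : P ≤ Cen N
  · obtain rfl : D = N := hD.trans (inf_eq_left.2 (le_Cen_comm.1 hPN))
    rw [((eS_mem_Zc _ _).1.mono (le_Cen_comm.1 hPN)).res_eq] at h
    obtain rfl := Set.singleton_injective (eS_inj (hb _) (hb _) h)
    exact ⟨_, H6.isCharacter_restrict L hχ, fun d x e => by rw [← e, hext]⟩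
  obtain ⟨V, hVP, v1, v2, v3, v4⟩ := exists_layer hP hPN
  have nN : ∀ g, g ∈ Nor N := fun g => by rw [Nor, Subgroup.normalizer_eq_top]; trivial
  obtain ⟨θ₁, h₁⟩ := exists_glaub hM hN (hP.to_le hVP) (fun g _ => nN g) (θ := θ) (inv_iff_cj.2
    fun g _ => (cj_eS_iff hM hN θ (nN g)).2 fun c c' e => by
      rw [← hext, ← hext, e, H6.char_isClassFunction hχ]) rfl
  obtain ⟨χ₁, c1, c2⟩ := step hM hN (hP.to_le hVP) v3 v4 hχ hext rfl h₁
  have l1 : N ⊓ Cen V ≤ Nor V := inf_le_right.trans (Cen_le_Nor V)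
  have l2 : D ≤ Nor V := hD ▸ (inf_le_inf_left _ (Cen_anti hVP)).trans l1
  have l3 : P ≤ Nor V := Subgroup.le_normalizer.trans v2
  haveI : ((N ⊓ Cen V).subgroupOf (Nor V)).Normal := Subgroup.normal_subgroupOf_of_le_normalizer
    fun g h => mem_Nor_inf (nN _) (Nor_le_Nor_Cen _ h)
  have hc := Nat.card_congr (Subgroup.subgroupOfEquivOfLe l1).toEquiv
  obtain ⟨χ₂, c3, c4⟩ := ih _ (by
      rw [hc, ← hn]
      exact (Subgroup.card_le_of_le inf_le_left).lt_of_ne fun e => v1 (le_Cen_comm.1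
        (inf_eq_left.1 (Subgroup.eq_of_le_of_card_ge inf_le_left e.ge))))
    ((N ⊓ Cen V).subgroupOf (Nor V))
    (fun e => hN ((hc ▸ e).trans (Subgroup.card_dvd_of_le inf_le_left)))
    (hP.comap_subtype (K := Nor V)) (θ := trI (Subgroup.subgroupOfEquivOfLe l1).symm θ₁) c1
    (fun n => c2 ⟨n, n.2⟩ _ rfl) (D := D.subgroupOf (Nor V)) (L := L.subgroupOf (Nor V))
    (by rw [Subgroup.comap_subtype, Cen_subgroupOf l3, hD, ← Subgroup.comap_subtype,
      ← Subgroup.comap_subtype, ← Subgroup.comap_subtype, ← Subgroup.comap_inf, inf_assoc,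
      inf_eq_right.2 (Cen_anti hVP)])
    (by rw [Subgroup.comap_subtype, Nor_subgroupOf l3]; exact Subgroup.comap_mono hL)
    (θ' := trI (Subgroup.subgroupOfEquivOfLe l2).symm θ') (emb_injective (Nor V).subtype_injective (by
      rw [← br_emb (Nor V).subtype_injective, ← Set.image_singleton, ← Set.image_singleton,
        eS_subgroupOf, eS_subgroupOf, h, h₁, Subgroup.comap_subtype,
        Subgroup.map_subgroupOf_eq_of_le l3, br_br_of_le hVP])) rfl
  exact ⟨_, H6.isCharacter_comp (Subgroup.subgroupOfEquivOfLe (hL.trans v2)).symm.toMonoidHom c3,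
    fun d x e => c4 ⟨⟨d, l2 d.2⟩, d.2⟩ _ (Subtype.ext e)⟩

end H33.DG
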