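import Mathlib
import Cfsg.Agent.Lib.Core.GrpBasic
import Cfsg.Agent.Lib.DadeGl.Main

/-!
The Dade–Glauberman theorem for character triples: Glauberman correspondents have the same
central extension.
-/

set_option autoImplicit false
set_option linter.unusedSectionVars false
set_option linter.style.haveILetI false

attribute [local irreducible] H33.instFieldF

namespace H33.DG

open Finset Module H86 MonoidAlgebra Cfsg H31
open scoped ComplexConjugate

universe u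

variable {p : ℕ} [hp : Fact p.Prime] {M : Ideal AlgInt} [M.IsMaximal] {G Γ : Type u} [Group G]
  [Finite G] [Group Γ] [Finite Γ] {N : Subgroup G} [hn : N.Normal] {π : Γ →* G} {τ : Γ → ℂ}
  {ν : N.comap π →* ℂˣ} {m : ℕ}

theorem not_dvd_ker {θ : N → ℂ} (hc : IsCentralExt N θ π τ ν) (hν : ∀ x, ν x ^ m = 1)
    (hm : ¬ p ∣ m) : ¬ p ∣ Nat.card π.ker := fun e => by
  obtain ⟨z, hz⟩ := exists_prime_orderOf_dvd_card' p e
  have h : (z : Γ) ∈ N.comap π := by simp [MonoidHom.mem_ker.1 z.2]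
  have := hc.faithful (⟨z, h⟩ ^ m) (by simp [MonoidHom.mem_ker.1 z.2]) (by rw [map_pow, hν])
  exact hm (hz ▸ orderOf_dvd_of_pow_eq_one (Subtype.ext (Subtype.ext_iff.1 this :)))

theorem exists_psub (hs : Function.Surjective π) (hz : π.ker ≤ Subgroup.center Γ) {P : Subgroup G}
    (hP : IsPGroup p P) : ∃ S : Subgroup Γ, IsPGroup p S ∧ S.map π = P ∧
      (Nor P).comap π ≤ Nor S := by
  obtain ⟨S, hS⟩ := exists_isSyl p (P.comap π)
  have h1 : ∀ u ∈ P, ∃ s ∈ S, π s = u := fun u hu => by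
    obtain ⟨S₀, rfl⟩ := hS.exists_sylow
    have := (S₀.mapSurjective (π.subgroupComap_surjective_of_surjective P hs)).is_maximal'
      (hP.to_subgroup ⊤) le_top
    obtain ⟨s, hs, e⟩ := this.le (Subgroup.mem_top ⟨u, hu⟩)
    exact ⟨s, ⟨s, hs, rfl⟩, congrArg Subtype.val e⟩
  refine ⟨S, hS.pgrp, le_antisymm (Subgroup.map_le_iff_le_comap.2 hS.le) h1, fun y hy => ?_⟩
  have h2 := hS.cs y
  rw [mem_Nor_iff_cs.1 (Subgroup.le_normalizer_comap π hy)] at h2
  obtain ⟨k, hk, e⟩ := hS.conj h2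
  obtain ⟨s, hs, e'⟩ := h1 _ hk
  rw [mem_Nor_iff_cs, e, ← mem_Nor_iff_cs, ← inv_mul_cancel_right k s, mul_assoc, ← mul_assoc]
  exact mul_mem (Subgroup.center_le_normalizer _ (hz (by simp [MonoidHom.mem_ker, e'])))
    (Subgroup.le_normalizer hs)

theorem dg_cext (hM : IsPModular p M) (hN : ¬ p ∣ Nat.card N) {θ : IrrCharacter N}
    (hc : IsCentralExt N θ.1 π τ ν) (hν : ∀ x, ν x ^ m = 1) (hm : ¬ p ∣ m) {P D L : Subgroup G}
    (hP : IsPGroup p P) (hD : D = N ⊓ Cen P) (hL : L ≤ Nor P) [(D.subgroupOf L).Normal]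
    (hDL : D ≤ L) {θ' : IrrCharacter D} (h : eS M D {θ'} = br P (eS M N {θ})) :
    ∃ τ' ν', IsCentralExt (D.subgroupOf L) (fun x => θ'.1 ⟨(x : L), x.2⟩) (π.subgroupComap L) τ' ν' ∧
      ∀ x hx, ν' x = ν ⟨x, hx⟩ := by
  obtain ⟨S, hS, rfl, hSN⟩ := exists_psub hc.surj hc.central hP
  have hZ := not_dvd_ker hc hν hm
  have hDN : D ≤ N := hD ▸ inf_le_left
  have l1 : D.comap π ≤ N.comap π := Subgroup.comap_mono hDN
  have hD' : D.comap π = N.comap π ⊓ Cen S := le_antisymm (fun x hx => ⟨l1 hx, mem_Cen'.2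
    fun s hs => by
      have := hc.faithful (⟨_, (hn.comap π).conj_mem x (l1 hx) s⟩ * ⟨x, l1 hx⟩⁻¹)
        (by simpa [mul_inv_eq_one] using mem_Cen'.1 (hD.le hx).2 _ ⟨s, hs, rfl⟩)
        (by rw [map_mul, hc.inv s ⟨x, l1 hx⟩]; simp)
      exact congrArg Subtype.val (mul_inv_eq_one.1 this)⟩) fun x hx => hD.ge ⟨hx.1, by
    rintro _ ⟨s, hs, rfl⟩
    rw [← map_mul, ← map_mul, mem_Cen.1 hx.2 s hs]⟩
  let θ₁ : IrrCharacter (N.comap π) := ⟨_, hc.isIrr_res θ.2⟩
  let θ₂ : IrrCharacter (D.comap π) := ⟨_, H6.isIrrCharacter_mul_hom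
    (H6.isIrrCharacter_comp_surjective _ (hc.surjective_res D) θ'.2)
    (ν.comp (Subgroup.inclusion l1))⁻¹⟩
  have hO : ∀ x, (Nat.card π.ker : ℂ)⁻¹ * conj (ν x : ℂ)⁻¹ ∈ O M := fun x =>
    mul_mem (natCast_inv_mem_O hM hZ) (mem_O_of_pow_eq_one M (n := m) (by rintro rfl; simp at hm)
      (by rw [← map_pow, inv_pow, ← Units.val_pow_eq_pow_val, hν]; simp))
  have hτ : ∀ x : N.comap π, τ x = θ.1 ⟨π x, x.2⟩ * (ν x : ℂ)⁻¹ := fun x => by
    rw [← hc.eq, mul_inv_cancel_right₀ (ν x).ne_zero]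
  have hK : ¬ p ∣ Nat.card D := fun e => hN (e.trans (Subgroup.card_dvd_of_le hDN))
  obtain ⟨τ', t1, t2⟩ := dg hM (N.comap π) (by
      rw [H1.card_comap_of_surjective hc.surj, hp.out.dvd_mul]; tauto) hS (θ := θ₁)
    (H6.irr_isCharacter hc.irr) (fun _ => rfl) hD' ((Subgroup.comap_mono hL).trans hSN) (θ' := θ₂)
    (emb_subtype_ext (hD' ▸ (br_mem_Fx (eS_mem_Zc _ _)).1) fun x => by
      have h1 := congrArg (·.coeff (π x)) h
      rw [coeff_res_of_mem _ (hD.le x.2).2, eS, eS, coeff_emb_coe (H := D) _ ⟨π x, x.2⟩,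
        coeff_emb_coe (H := N) _ ⟨π x, hDN x.2⟩, coeff_eB, coeff_eB] at h1
      rw [coeff_res_of_mem _ (hD'.le x.2).2, eS, coeff_emb_coe _ ⟨_, l1 x.2⟩, coeff_eB, coeff_eB,
        show blockCoeff {θ₂} x = (Nat.card π.ker : ℂ)⁻¹ * conj (ν ⟨x, l1 x.2⟩ : ℂ)⁻¹ *
          blockCoeff {θ'} ⟨π x, x.2⟩ by
            simp only [blockCoeff_singleton, θ₂, H1.card_comap_of_surjective hc.surj]
            simp; ring_nf; exact mul_right_comm _ _ _,
        show blockCoeff {θ₁} ⟨x, l1 x.2⟩ = (Nat.card π.ker : ℂ)⁻¹ * conj (ν ⟨x, l1 x.2⟩ : ℂ)⁻¹ *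
          blockCoeff {θ} ⟨π x, hDN x.2⟩ by
            simp only [blockCoeff_singleton, θ₁, H1.card_comap_of_surjective hc.surj, hτ]
            simp [show (⟨1, _⟩ : N) = 1 from rfl]; ring,
        red_mul (hO _) (blockCoeff_mem_O (H34.isPBlock_singleton hM hK _) _),
        red_mul (hO _) (blockCoeff_mem_O (H34.isPBlock_singleton hM hN _) _), h1])
  obtain ⟨ι, i1, i2, -⟩ := exists_sec hc
  let j : (D.subgroupOf L).comap (π.subgroupComap L) →* D.comap π :=
    ((L.comap π).subtype.comp (Subgroup.subtype _)).codRestrict _ fun x => x.2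
  refine ⟨τ', ν.comp ((Subgroup.inclusion l1).comp j), ⟨hc.surjective_res L, fun x hx =>
    Subgroup.mem_center_iff.2 fun y => Subtype.ext (Subgroup.mem_center_iff.1
      (hc.central (congrArg Subtype.val hx)) y),
    isIrr_of_comp_isIrr (Subgroup.inclusion (Subgroup.comap_mono hDL)) t1
      (by simpa only [fun d => t2 d (Subgroup.inclusion (Subgroup.comap_mono hDL) d) rfl] using θ₂.2),
    fun y x => hc.inv y (Subgroup.inclusion l1 (j x)), fun x => ?_, fun x h1 h2 =>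
      Subtype.ext (Subtype.ext (Subtype.ext_iff.1 (hc.faithful (Subgroup.inclusion l1 (j x))
        (congrArg Subtype.val h1) h2) :)),
    ?_⟩, fun _ _ => rfl⟩
  · rw [t2 (j x) x rfl]
    simp [θ₂]; rfl
  · let f : D.subgroupOf L →* N := (L.subtype.comp (Subgroup.subtype _)).codRestrict _
      fun x => hDN x.2
    exact ⟨((ι.comp f).codRestrict _ fun x => show π _ ∈ L from (i1 _).symm ▸ x.1.2).codRestrict _
      fun x => show π _ ∈ D from (i1 _).symm ▸ x.2, fun x => Subtype.ext (i1 _), fun x => i2 _ _⟩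

end H33.DG
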