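import Mathlib
import Cfsg.Agent.Lib.Block.Apps
import Cfsg.Agent.Lib.Core.CoprimeSylow
import Cfsg.Agent.Lib.Core.Fitting
import Cfsg.Agent.Lib.DadeGl.CExt

/-!
The converse of the Dade–Glauberman theorem, and an extension theorem for coprime solvable action.
-/

set_option autoImplicit false
set_option linter.unusedSectionVars false
set_option linter.style.haveILetI false

attribute [local irreducible] H33.instFieldF

namespace H33.DG

open Finset Module H86 MonoidAlgebra Cfsg H31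

universe u

theorem dg_conv {p : ℕ} [hp : Fact p.Prime] {M : Ideal AlgInt} [M.IsMaximal] {G : Type u} [Group G]
    [Finite G] {N : Subgroup G} [hn : N.Normal] (hM : IsPModular p M) (hN : ¬ p ∣ Nat.card N)
    {θ : IrrCharacter N}
    (hθ : ∀ (g : G) (n : N), θ.1 ⟨g * n * g⁻¹, hn.conj_mem (n : G) n.2 g⟩ = θ.1 n)
    {P D L : Subgroup G} (hP : IsPGroup p P) (hD : D = N ⊓ Cen P) (hL : L ≤ Nor P) (hDL : D ≤ L)
    {θ' : IrrCharacter D} (h : eS M D {θ'} = br P (eS M N {θ})) {η : L → ℂ} (hη : IsCharacter L η)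
    (hext : ∀ (d : D) (x : L), (d : G) = x → η x = θ'.1 d) :
    ∃ χ : (N ⊔ L : Subgroup G) → ℂ, IsCharacter _ χ ∧
      ∀ (n : N) (x : (N ⊔ L : Subgroup G)), (n : G) = x → χ x = θ.1 n := by
  have nN : ∀ g, g ∈ Nor N := fun g => by rw [Nor, Subgroup.normalizer_eq_top]; trivial
  haveI : (D.subgroupOf L).Normal := Subgroup.normal_subgroupOf_of_le_normalizer
    fun g h => hD ▸ mem_Nor_inf (nN _) (Nor_le_Nor_Cen _ (hL h))
  obtain ⟨Γ, _, _, π, τ, ν, hc, hν⟩ := exists_cext N θ.2 hθ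
  obtain ⟨τ', ν', hc', hν'⟩ := dg_cext hM hN hc hν (fun e => (hp.out.dvd_mul.1 e).elim hN hN)
    hP hD hL hDL h
  obtain ⟨μ, hμ⟩ := hc'.hom_of_extends (H7.isIrr_subgroupOf hDL θ'.2) (H := ⊤) le_top
    (H6.isCharacter_restrict ⊤ hη) fun n => hext ⟨_, n.2⟩ _ rfl
  obtain ⟨ι, i1, i2, -⟩ := exists_sec hc
  haveI : (ν.ker.map (N.comap π).subtype).Normal := ⟨by
    rintro _ ⟨n, hn, rfl⟩ g
    exact ⟨⟨_, (Subgroup.Normal.comap ‹_› π).conj_mem n n.2 g⟩, (hc.inv g n).trans hn, rfl⟩⟩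
  let q := QuotientGroup.mk' (ν.ker.map (N.comap π).subtype)
  have q1 : ∀ x, q x = 1 ↔ x ∈ ν.ker.map (N.comap π).subtype := QuotientGroup.eq_one_iff
  let f := q.comp ((L.comap π).subtype.comp
    (Subgroup.subtype ((⊤ : Subgroup L).comap (π.subgroupComap L))))
  have hμ' : ∀ (y : (⊤ : Subgroup L).comap (π.subgroupComap L)) (h : (y.1 : Γ) ∈ N.comap π), μ y = ν ⟨y.1, h⟩ := fun y h => by
    rw [← hν' ⟨y, show π y ∈ D from hD.ge ⟨h, H34.mem_Cen_of_mem_Nor hN hP (fun g _ => nN g) h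
      (hL y.1.2)⟩⟩, ← hμ]
  let μ' := f.rangeRestrict.liftOfSurjective f.rangeRestrict_surjective ⟨μ, fun y hy => by
    obtain ⟨n, h1, h2⟩ := (q1 _).1 (congrArg Subtype.val hy)
    rw [MonoidHom.mem_ker, hμ' y (Eq.subst h2 n.2), ← MonoidHom.mem_ker.1 h1]
    exact congrArg ν (Subtype.ext h2.symm)⟩
  have hx : ∀ x, π x ∈ N ⊔ L → ∃ (n : N) (y : Γ), π y ∈ L ∧ x = ι n * y := fun x hx => by
    obtain ⟨n, h1, l, h2, e⟩ := Subgroup.mem_sup_of_normal_left.1 hx
    exact ⟨⟨n, h1⟩, (ι ⟨n, h1⟩)⁻¹ * x, by simpa [i1, ← e] using h2, by simp⟩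
  have q2 : ∀ n, q (ι n) = 1 := fun n => (q1 _).2 ⟨⟨ι n, by simp [i1]⟩, i2 _ _, rfl⟩
  let F := μ'.comp ((q.comp ((N ⊔ L).comap π).subtype).codRestrict f.range fun x => by
    obtain ⟨n, y, h1, h2⟩ := hx x x.2
    exact ⟨⟨⟨y, h1⟩, trivial⟩, by simp [f, h2, q2]⟩)
  have hF : ∀ (x : (N ⊔ L).comap π) h, F x = ν ⟨x, h⟩ := fun x h => by
    obtain ⟨n, y, h1, h2⟩ := hx x x.2
    have h3 : y ∈ N.comap π := by
      rw [eq_inv_mul_of_mul_eq h2.symm]; exact mul_mem (by simp [i1]) h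
    rw [show (⟨x, h⟩ : N.comap π) = ⟨ι n, by simp [i1]⟩ * ⟨y, h3⟩ from Subtype.ext h2, map_mul, i2,
      one_mul, ← hμ' ⟨⟨y, h1⟩, trivial⟩]
    exact (congrArg μ' (Subtype.ext (by simp [f, h2, q2]))).trans
      (MonoidHom.liftOfRightInverse_comp_apply _ _ _ _ _)
  have e : ∀ (x : (N ⊔ L).comap π) h, τ x * F x = θ.1 ⟨π x, h⟩ := fun x h => by
    rw [hF x h]; exact hc.eq ⟨x, h⟩
  obtain ⟨χ, c1, c2⟩ := exists_char_descend _ (hc.surjective_res (N ⊔ L))
    (ψ := fun x => τ x * F x) (H6.isCharacter_mul (H6.isCharacter_restrict _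
      (H6.irr_isCharacter hc.irr)) (H6.irr_isCharacter (H6.isIrrCharacter_hom F))) fun z hz => by
      have : π z = 1 := congrArg Subtype.val hz
      rw [e z (by simp [this]), e 1 (by simp)]; simp [this]
  refine ⟨χ, c1, fun n x hn => ?_⟩
  obtain ⟨y, rfl⟩ := hc.surjective_res _ x
  rw [c2, e y (Eq.subst hn n.2)]
  exact congrArg _ (Subtype.ext hn.symm)

theorem ext_of_coprime {G : Type u} [Group G] [Finite G] (N K S : Subgroup G) [hn : N.Normal]
    (hK : Group.IsSolvable K) (hNK : (Nat.card N).Coprime (Nat.card K))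
    (hSK : (Nat.card S).Coprime (Nat.card K)) (hS : S ≤ Nor K) (hC : N ⊓ Cen K ≤ Cen S)
    (hNS : N ⊓ S = ⊥) {θ : IrrCharacter N}
    (hθ : ∀ (g : G) (n : N), θ.1 ⟨g * n * g⁻¹, hn.conj_mem (n : G) n.2 g⟩ = θ.1 n) :
    ∃ X : Subgroup G, N ≤ X ∧ S ≤ X ∧ ∃ χ : X → ℂ, IsCharacter X χ ∧
      ∀ (n : N) (x : X), (n : G) = x → χ x = θ.1 n := by
  induction hc : Nat.card N using Nat.strong_induction_on generalizing G with
  | _ n ih =>
  by_cases h : K ≤ Cen N
  · have h1 : ∀ (a : N) (s : S), Commute (N.subtype a) (S.subtype s) := fun a s =>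
      (mem_Cen.1 (hC ⟨a.2, le_Cen_comm.1 h a.2⟩) s s.2).symm
    have h2 : Function.Injective (N.subtype.noncommCoprod S.subtype h1) := by
      rw [MonoidHom.noncommCoprod_injective]
      exact ⟨N.subtype_injective, S.subtype_injective, by simpa [disjoint_iff] using hNS⟩
    refine ⟨MonoidHom.range _, fun a ha => ⟨(⟨a, ha⟩, 1), by simp⟩, fun a ha => ⟨(1, ⟨a, ha⟩), by simp⟩, _,
      H6.isCharacter_comp ((MonoidHom.fst N S).comp (MonoidHom.ofInjective h2).symm.toMonoidHom)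
      (H6.irr_isCharacter θ.2), fun a x e => ?_⟩
    rw [show x = MonoidHom.ofInjective h2 (a, 1) from Subtype.ext (by
      simp [MonoidHom.ofInjective_apply, e])]
    simp
  let φ := QuotientGroup.mk' (Cen N)
  have hφ : ∀ {A : Subgroup G}, A.map φ = ⊥ ↔ A ≤ Cen N := by
    simp only [φ, Subgroup.map_eq_bot_iff, QuotientGroup.ker_mk', implies_true]
  haveI : Nontrivial (K.map φ) := (Subgroup.nontrivial_iff_ne_bot _).2 (mt hφ.1 h)
  haveI := Group.isSolvable_of_surjective (φ.subgroupMap_surjective K)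
  obtain ⟨p, hp, h1⟩ := H1.exists_pCore_ne_bot_of_isSolvable (G := K.map φ)
  haveI := Fact.mk hp
  obtain ⟨M, hM⟩ := exists_isPModular p
  haveI := isMaximal_of hM
  set R := K ⊓ (pCoreOf p (K.map φ)).comap φ
  have r1 : Nor K ≤ Nor R := fun g hg => mem_Nor_inf hg (Subgroup.le_normalizer_comap φ
    (H1.normalizer_le_normalizer_pCoreOf _ (Subgroup.le_normalizer_map φ ⟨g, hg, rfl⟩)))
  have r2 : R.map φ = pCoreOf p (K.map φ) := by
    refine le_antisymm (Subgroup.map_le_iff_le_comap.2 inf_le_right) fun x hx => ?_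
    obtain ⟨k, hk, rfl⟩ := H1.pCoreOf_le _ hx
    exact ⟨k, ⟨hk, hx⟩, rfl⟩
  haveI : Group.IsSolvable R := Group.isSolvable_of_isSolvable_injective
    (Subgroup.inclusion_injective inf_le_left)
  obtain ⟨P, hP, hSP⟩ := H2.exists_invariant_sylowIn (hS.trans r1)
    (hSK.coprime_dvd_right (Subgroup.card_dvd_of_le inf_le_left)) (.inr this) p
  have r3 : R.map φ = P.map φ := (hP.map φ).eq_of_le (r2 ▸ H1.isPGroup_pCoreOf _)
    (Subgroup.map_mono hP.le) le_rfl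
  have r4 : ¬ P ≤ Cen N := fun e => h1 (by
    rwa [← hφ, ← r3, r2, H1.pCoreOf_def, Subgroup.map_eq_bot_iff_of_injective _
      (Subgroup.subtype_injective _)] at e)
  have hN : ¬ p ∣ Nat.card N := fun e => by
    obtain ⟨k, hk⟩ := IsPGroup.iff_card.1 hP.isPGroup
    refine hp.ne_one (Nat.eq_one_of_dvd_coprimes hNK e (Dvd.dvd.trans ?_
      (Subgroup.card_dvd_of_le (hP.le.trans inf_le_left))))
    refine hk ▸ dvd_pow_self p fun e => r4 ?_
    rw [e, pow_zero, Subgroup.card_eq_one] at hk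
    simp [hk]
  have nN : ∀ g, g ∈ Nor N := fun g => by rw [Nor, Subgroup.normalizer_eq_top]; trivial
  have hi : ∀ g, cj g (eS M N {θ}) = eS M N {θ} := fun g =>
    (cj_eS_iff hM hN θ (nN g)).2 fun c c' e => by rw [← hθ g c]; exact congrArg _ (Subtype.ext e)
  obtain ⟨θ', h'⟩ := exists_glaub hM hN hP.isPGroup (fun g _ => nN g) (θ := θ) (inv_iff_cj.2
    fun g _ => hi g) rfl
  have l1 : N ⊓ Cen P ≤ Nor P := inf_le_right.trans (Cen_le_Nor P)
  have nC : Nor P ≤ Nor (N ⊓ Cen P) := fun g h => mem_Nor_inf (nN _) (Nor_le_Nor_Cen _ h)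
  haveI : ((N ⊓ Cen P).subgroupOf (Nor P)).Normal := Subgroup.normal_subgroupOf_of_le_normalizer nC
  have hc' := Nat.card_congr (Subgroup.subgroupOfEquivOfLe l1).toEquiv
  have d := fun A : Subgroup G => Subgroup.card_comap_dvd_of_injective A _ (Nor P).subtype_injective
  obtain ⟨X, x1, x2, χ, x3, x4⟩ := ih _ (by
      rw [hc', ← hc]
      exact (Subgroup.card_le_of_le inf_le_left).lt_of_ne fun e => r4 (le_Cen_comm.1
        (inf_eq_left.1 (Subgroup.eq_of_le_of_card_ge inf_le_left e.ge))))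
    ((N ⊓ Cen P).subgroupOf (Nor P)) (K.subgroupOf (Nor P)) (S.subgroupOf (Nor P))
    (Group.isSolvable_of_isSolvable_injective (f := (Nor P).subtype.subgroupComap K) fun a b e =>
      Subtype.ext (Subtype.ext (Subtype.ext_iff.1 e :)))
    ((hNK.coprime_dvd_right (d K)).coprime_dvd_left ((d _).trans (Subgroup.card_dvd_of_le inf_le_left)))
    ((hSK.coprime_dvd_right (d K)).coprime_dvd_left (d S))
    (fun s hs => Subgroup.le_normalizer_comap _ (hS hs))
    (fun x hx => mem_Cen.2 fun s hs => Subtype.ext (mem_Cen.1 (hC ⟨hx.1.1, mem_Cen.2 fun k hk => by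
      obtain ⟨r, hr, y, hy, rfl⟩ := hP.frattini (r1 (Subgroup.le_normalizer hk))
      obtain ⟨u, hu, e⟩ := r3.le ⟨r, hr, rfl⟩
      obtain ⟨c, c1, rfl⟩ := (QuotientGroup.mk'_eq_mk' _).1 e
      have h3 : u ∈ K := (hP.le hu).1
      have h4 : y ∈ K := (K.mul_mem_cancel_left hr.1).1 hk
      have h5 := congrArg Subtype.val (mem_Cen.1 hx.2 ⟨y, hy⟩ h4)
      have h6 := mem_Cen.1 hx.1.2 u hu
      have h7 := mem_Cen.1 c1 x hx.1.1
      simp only [Subgroup.coe_mul, Subgroup.coe_subtype] at h5 h6 ⊢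
      rw [mul_assoc, h5, ← mul_assoc, mul_assoc u, ← h7, ← mul_assoc, h6]
      simp only [mul_assoc]⟩) s hs))
    (by rw [eq_bot_iff]; exact fun x hx => Subtype.ext (hNS.le ⟨hx.1.1, hx.2⟩))
    (θ := ⟨_, H7.isIrr_subgroupOf l1 θ'.2⟩) (fun g n => (cj_eS_iff hM (fun e => hN (e.trans
      (Subgroup.card_dvd_of_le inf_le_left))) θ' (nC g.2)).1 (by
        rw [h', cj_br, mem_Nor_iff_cs.1 g.2, hi]) _ _ rfl) rfl
  let ε := (X.equivMapOfInjective _ (Nor P).subtype_injective).symm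
  have hε : ∀ x, ((ε x : Nor P) : G) = x := fun x =>
    congrArg Subtype.val (ε.symm_apply_apply x)
  exact ⟨N ⊔ X.map (Nor P).subtype, le_sup_left, le_sup_of_le_right fun s hs => ⟨⟨s, hSP hs⟩, x2 hs, rfl⟩,
    dg_conv hM hN hθ hP.isPGroup rfl (Subgroup.map_subtype_le X)
    (fun a ha => ⟨⟨a, l1 ha⟩, x1 ha, rfl⟩) h' (H6.isCharacter_comp ε.toMonoidHom x3)
    fun a x e => x4 ⟨⟨a, l1 a.2⟩, a.2⟩ _ (Subtype.ext (e.trans (hε x).symm))⟩

end H33.DG
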